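import Cfsg.Agent.Fus.Balance72.Local
import Cfsg.Agent.Fus.Invariant

/-!
The maps of the normalizer of `X` on subgroups of `N_T(X)` factor as automorphisms of `N_T(X)`
after maps of the subsystem of `p`-power index of the normalizer of `X` in the product.
-/

set_option autoImplicit false

namespace CfsgLib.Balance72

open Cfsg Cfsg.FusionSystem CfsgLib.Fus CfsgLib.NormalCent CfsgLib.Fus.PPowerExist
  CfsgLib.Fusion.Alperin

variable {Ω : Type*} [Group Ω] {S T : Subgroup Ω}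

/-- A subgroup carried into itself by an automorphism is reflected by it. -/
theorem mem_of_apply_mem {R X : Subgroup Ω} [Finite X] (hX : X ≤ R) (b : MulAut R)
    (h : ∀ x : R, (x : Ω) ∈ X → ((b x : R) : Ω) ∈ X) {x : R} (hx : ((b x : R) : Ω) ∈ X) :
    (x : Ω) ∈ X := by
  let e : X → X := fun z => ⟨(b ⟨z, hX z.2⟩ : R), h _ z.2⟩
  have he : Function.Injective e := fun y z hyz => by
    have h1 : b ⟨y, hX y.2⟩ = b ⟨z, hX z.2⟩ := Subtype.ext (congrArg (fun w : X => (w : Ω)) hyz :)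
    exact Subtype.ext (congrArg Subtype.val (b.injective h1) : (_ : Ω) = _)
  obtain ⟨z, hz⟩ := Finite.injective_iff_surjective.1 he ⟨_, hx⟩
  have h1 : b ⟨z, hX z.2⟩ = b x := Subtype.ext (congrArg (fun w : X => (w : Ω)) hz :)
  rw [← b.injective h1]
  exact z.2

namespace Loc

variable [Finite S] {p : ℕ} [Fact p.Prime] {F : Cfsg.FusionSystem S} {E : Cfsg.FusionSystem T}
  {G : Cfsg.FusionSystem S} {X : Subgroup Ω} {N : Cfsg.FusionSystem (normalizerIn S X)}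
  (L : Loc F E G p X N)

include L

variable {M : Cfsg.FusionSystem (T ⊓ normalizerIn S X : Subgroup Ω)} (hM : M.IsSaturated p)
  (hMi : M.HasPPowerIndexIn (normalizerSystem G X L.hX.1) p)

include hM hMi

theorem tfac_comp {P Q : Subgroup Ω} {φ : P →* Ω} {ψ : Q →* Ω} (hφ : TFac N M P φ)
    (hψ : TFac N M Q ψ) (h : ∀ x : P, φ x ∈ Q) :
    TFac N M P (ψ.comp (φ.codRestrict Q h)) := by
  obtain ⟨a, ha, φ₀, hφ₀, hae⟩ := hφ
  obtain ⟨c, hc, ψ₀, hψ₀, hce⟩ := hψ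
  obtain ⟨χ, hχ, hχe⟩ := L.transport hM hMi (Subgroup.inv_mem _ ha) hψ₀
  have hQ := hom_le M hψ₀
  have e1 : ∀ x : P, φ₀ x = autFun a⁻¹ (φ x) := fun x => by
    rw [hae, autFun_inv_apply a (hom_mem M hφ₀ x)]
  have hmem : ∀ x : P, φ₀ x ∈ autImg a⁻¹ Q := fun x => by
    rw [e1]
    exact autFun_mem_autImg _ hQ (h x)
  refine ⟨c * a, Subgroup.mul_mem _ hc ha, _, M.comp_mem hφ₀ hχ hmem, fun x => ?_⟩
  show ψ ⟨φ x, h x⟩ = autFun (c * a) (χ ⟨φ₀ x, hmem x⟩)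
  have e : (⟨φ₀ x, hmem x⟩ : autImg a⁻¹ Q) = ⟨autFun a⁻¹ (φ x), autFun_mem_autImg _ hQ (h x)⟩ :=
    Subtype.ext (e1 x)
  rw [e, hχe ⟨φ x, h x⟩, hce, autFun_mul _ _ (autFun_mem _ (hom_mem M hψ₀ _)),
    autFun_apply_inv a (hom_mem M hψ₀ _)]

theorem tfac_inv {P Q : Subgroup Ω} {φ : P →* Ω} {ψ : Q →* Ω} (hφ : TFac N M P φ)
    (hr : φ.range = Q) (hinv : ∀ (x : P) (h : φ x ∈ Q), ψ ⟨φ x, h⟩ = (x : Ω)) :
    TFac N M Q ψ := by
  obtain ⟨a, ha, φ₀, hφ₀, hae⟩ := hφ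
  obtain ⟨ψ₀, hψ₀, -, hl, -⟩ := exists_inv M hφ₀ rfl
  obtain ⟨χ, hχ, hχe⟩ := L.transport hM hMi ha hψ₀
  have hR := range_le M hφ₀
  have e : Q ≤ autImg a φ₀.range := by
    rw [← hr]
    rintro _ ⟨x, rfl⟩
    exact (mem_autImg hR).2 ⟨φ₀ x, ⟨x, rfl⟩, (hae x).symm⟩
  refine ⟨a⁻¹, Subgroup.inv_mem _ ha, _, restrict_mem M hχ e, fun q => ?_⟩
  obtain ⟨x, hx⟩ : (q : Ω) ∈ φ.range := hr.symm ▸ q.2
  have hxT : (x : Ω) ∈ T ⊓ normalizerIn S X := hom_le M hφ₀ x.2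
  have h1 : ψ q = (x : Ω) := by
    rw [← hinv x (hx ▸ q.2)]
    congr 1
    exact Subtype.ext hx.symm
  have h2 : χ (Subgroup.inclusion e q) = autFun a (x : Ω) := by
    rw [← hl x ⟨x, rfl⟩, ← hχe ⟨φ₀ x, x, rfl⟩ (autFun_mem_autImg a hR ⟨x, rfl⟩)]
    congr 1
    refine Subtype.ext ?_
    show (q : Ω) = autFun a (φ₀ x)
    rw [← hae, hx]
  show ψ q = autFun a⁻¹ (χ (Subgroup.inclusion e q))
  rw [h1, h2, autFun_inv_apply a hxT]

omit hM hMi in
theorem conjN {s : Ω} (hs : s ∈ normalizerIn S X)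
    (hn : s ∈ Subgroup.normalizer ((T ⊓ normalizerIn S X : Subgroup Ω) : Set Ω)) :
    (conjAut hn : MulAut (T ⊓ normalizerIn S X : Subgroup Ω)) ∈
      N.autGroup (T ⊓ normalizerIn S X) :=
  autInducedBy_le_autGroup N inf_le_right (conjAut_mem_autInducedBy hn hs)

/-- The maps of the normalizer in the product factor. -/
theorem tfac_gx {Q : Subgroup Ω} (hQ : Q ≤ T ⊓ normalizerIn S X) {φ : Q →* Ω}
    (hφ : φ ∈ (normalizerSystem G X L.hX.1).Hom Q) : TFac N M Q φ := by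
  have : Finite (normalizerIn S X) := finite_of_le (normalizerIn_le X)
  obtain ⟨s, hs, φ₀, hφ₀, he⟩ := fac_of_hom (L.pr.hS.to_le (normalizerIn_le X)) L.satGX
    inf_le_right L.normalT₀ L.hyp_gx_le hM hMi hφ Q le_rfl hQ
  have hn := PPowerExist.le_normalizer (inf_le_right : T ⊓ normalizerIn S X ≤ _) L.normalT₀ hs
  refine ⟨conjAut hn, L.conjN hs hn, φ₀, hφ₀, fun x => ?_⟩
  rw [PPowerExist.autFun_conjAut hn (hom_mem M hφ₀ x)]
  exact he x

/-- The automorphisms of `Q` extending to automorphisms in `aut` at `Q X` preserving `X`. -/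
theorem exists_autK {Q : Subgroup Ω} (hQ : Q ≤ T ⊓ normalizerIn S X) :
    ∃ K : Subgroup (N.autGroup Q), K.Normal ∧
      (∀ g : Ω, g ∈ T ⊓ normalizerIn S X → ∀ hg : g ∈ Subgroup.normalizer (Q : Set Ω),
        ∀ h : (conjAut hg : MulAut Q) ∈ N.autGroup Q, (⟨_, h⟩ : N.autGroup Q) ∈ K) ∧
      ∀ α ∈ K, TFac N M Q (Q.subtype.comp ((α : N.autGroup Q) : MulAut Q).toMonoidHom) := by
  have := L.finiteX
  have hQN : Q ≤ normalizerIn S X := hQ.trans inf_le_right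
  have hQS : Q ≤ S := hQN.trans (normalizerIn_le X)
  have hRS : Q ⊔ X ≤ S := sup_le hQS L.hX.1
  have : Finite Q := finite_of_le hQS
  have : Finite (Q ⊔ X : Subgroup Ω) := finite_of_le hRS
  set ι := Subgroup.inclusion (le_sup_left : Q ≤ Q ⊔ X) with hι
  let K : Subgroup (N.autGroup Q) :=
    { carrier := {α | ∃ b ∈ aut G T p (Q ⊔ X),
        (∀ x : Q, b (ι x) = ι ((α : MulAut Q) x)) ∧
        ∀ x : (Q ⊔ X : Subgroup Ω), (x : Ω) ∈ X ↔ ((b x : (Q ⊔ X : Subgroup Ω)) : Ω) ∈ X}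
      one_mem' := ⟨1, Subgroup.one_mem _, fun x => rfl, fun x => Iff.rfl⟩
      mul_mem' := fun {a a'} ⟨b, hb, hbe, hbX⟩ ⟨b', hb', hbe', hbX'⟩ =>
        ⟨b * b', Subgroup.mul_mem _ hb hb', fun x => (congrArg b (hbe' x)).trans (hbe _),
          fun x => (hbX' x).trans (hbX (b' x))⟩
      inv_mem' := fun {a} ⟨b, hb, hbe, hbX⟩ => ⟨b⁻¹, Subgroup.inv_mem _ hb, fun x => by
        apply b.injective
        rw [MulAut.apply_inv_self, hbe]
        show ι x = ι ((a : MulAut Q) ((a : MulAut Q)⁻¹ x))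
        rw [MulAut.apply_inv_self],
        fun x => by
        have h := hbX (b⁻¹ x)
        rw [MulAut.apply_inv_self] at h
        exact h.symm⟩ }
  refine ⟨K, ⟨fun k ⟨b, hb, hbe, hbX⟩ α => ?_⟩, fun g hg hgn h => ?_,
    fun α ⟨b, hb, hbe, hbX⟩ => ?_⟩
  · obtain ⟨-, f, hf, hfe, hfX⟩ := (mor_normalizer L.hN).1 ((mem_autGroup_iff N hQN).1 α.2)
    have hmaps : ∀ x ∈ Q ⊔ X, f x ∈ Q ⊔ X := fun x hx => mem_of_sup hf le_rfl
      (fun y hy => Subgroup.mem_sup_left ((hfe ⟨y, hy⟩).symm ▸ ((α : MulAut Q) ⟨y, hy⟩).2))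
      (fun y hy => Subgroup.mem_sup_right (hfX y hy)) hx
    obtain ⟨⟨a, haF⟩, ha⟩ := exists_aut hf le_rfl hmaps
    have hax : ∀ x : (Q ⊔ X : Subgroup Ω), ((a x : (Q ⊔ X : Subgroup Ω)) : Ω) = f x := fun x => ha x
    have haX : ∀ x : (Q ⊔ X : Subgroup Ω), (x : Ω) ∈ X ↔
        ((a x : (Q ⊔ X : Subgroup Ω)) : Ω) ∈ X := fun x =>
      ⟨fun h => (hax x).symm ▸ hfX _ h, fun h =>
        mem_of_apply_mem le_sup_right a (fun y hy => (hax y).symm ▸ hfX _ hy) h⟩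
    have haι : ∀ x : Q, a (ι x) = ι ((α : MulAut Q) x) := fun x =>
      Subtype.ext ((hax _).trans (hfe x))
    refine ⟨a * b * a⁻¹, L.pr.conj_mem_aut hRS haF hb, fun x => ?_, fun x => ?_⟩
    · obtain ⟨y, rfl⟩ := (α : MulAut Q).surjective x
      show a (b (a⁻¹ (ι ((α : MulAut Q) y)))) = ι ((α : MulAut Q) ((k : MulAut Q)
        ((α : MulAut Q)⁻¹ ((α : MulAut Q) y))))
      rw [MulAut.inv_apply_self, ← haι, MulAut.inv_apply_self, hbe, haι]
    · show _ ↔ ((a (b (a⁻¹ x)) : (Q ⊔ X : Subgroup Ω)) : Ω) ∈ X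
      rw [← haX, ← hbX]
      have h := haX (a⁻¹ x)
      rw [MulAut.apply_inv_self] at h
      exact h.symm
  · have hnR : g ∈ Subgroup.normalizer ((Q ⊔ X : Subgroup Ω) : Set Ω) := by
      have key : ∀ s, s ∈ Subgroup.normalizer (Q : Set Ω) → s ∈ Subgroup.normalizer (X : Set Ω) →
          ∀ x ∈ Q ⊔ X, s * x * s⁻¹ ∈ Q ⊔ X := fun s hsQ hsX x hx =>
        (sup_le (fun y hy => Subgroup.mem_sup_left (conj_mem_of_normalizer hsQ hy))
          (fun y hy => Subgroup.mem_sup_right (conj_mem_of_normalizer hsX hy)) :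
          Q ⊔ X ≤ (Q ⊔ X).comap (MulAut.conj s).toMonoidHom) hx
      refine Subgroup.mem_normalizer_iff.2 fun x => ⟨key g hgn hg.2.2 x, fun hx => ?_⟩
      have h1 := key g⁻¹ (Subgroup.inv_mem _ hgn) (Subgroup.inv_mem _ hg.2.2) _ hx
      rwa [inv_inv, show g⁻¹ * (g * x * g⁻¹) * g = x by group] at h1
    refine ⟨conjAut hnR, L.pr.autT_le_aut hRS (conjAut_mem_autInducedBy hnR hg.1),
      fun x => Subtype.ext ?_, fun x => ?_⟩
    · show ((conjAut hnR (ι x) : (Q ⊔ X : Subgroup Ω)) : Ω) = ((conjAut hgn x : Q) : Ω)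
      rw [conjAut_apply, conjAut_apply]
      rfl
    · rw [conjAut_apply]
      exact Subgroup.mem_normalizer_iff.1 hg.2.2 _
  · obtain ⟨f, hf, hfe, -⟩ := exists_mor_of_aut hRS ⟨b, L.pr.aut_le hRS hb⟩
    refine L.tfac_gx hM hMi hQ
      ((mor_normalizer (N := normalizerSystem G X L.hX.1) fun _ => rfl).2
        ⟨hQN, f, hf, fun x => ?_, fun x hx => ?_⟩)
    · rw [show f (x : Ω) = _ from hfe (ι x), hbe]
      rfl
    · rw [show f x = _ from hfe ⟨x, Subgroup.mem_sup_right hx⟩]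
      exact (hbX _).1 hx

/-- Frattini factorization in the normalizer. -/
theorem tfac_of_hom {P : Subgroup Ω} (hPT : P ≤ T ⊓ normalizerIn S X) {φ : P →* Ω}
    (hφ : φ ∈ N.Hom P) : TFac N M P φ := by
  have hT := L.closedT₀
  have hTS : T ⊓ normalizerIn S X ≤ normalizerIn S X := inf_le_right
  have : Finite (normalizerIn S X) := finite_of_le (normalizerIn_le X)
  have : Finite (T ⊓ normalizerIn S X : Subgroup Ω) := finite_of_le hTS
  have hS' := L.pr.hS.to_le (normalizerIn_le X)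
  have hTp : IsPGroup p (T ⊓ normalizerIn S X : Subgroup Ω) := hS'.to_le hTS
  induction hn : Nat.card (T ⊓ normalizerIn S X : Subgroup Ω) - Nat.card P
    using Nat.strong_induction_on generalizing P with
  | _ n ih =>
  have hPS := hom_le N hφ
  by_cases htop : P = T ⊓ normalizerIn S X
  · subst htop
    have hr : φ.range = T ⊓ normalizerIn S X := by
      refine Subgroup.eq_of_le_of_card_ge ?_ (isConj_card (isConj_of_hom N hφ)).le
      rintro _ ⟨x, rfl⟩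
      exact hT.2 _ le_rfl φ hφ x
    refine ⟨isoOf hφ hr, isoOf_mem_autGroup hφ hr, Subgroup.subtype _, subtype_mem M le_rfl,
      fun x => ?_⟩
    show φ x = autFun _ (x : Ω)
    rw [autFun_apply _ x.2]
    rfl
  have big : ∀ {R : Subgroup Ω} {ψ : R →* Ω}, R ≤ T ⊓ normalizerIn S X → ψ ∈ N.Hom R →
      Nat.card P < Nat.card R → TFac N M R ψ := by
    intro R ψ hR hψ hlt
    have := Subgroup.card_le_of_le hR
    exact ih (Nat.card (T ⊓ normalizerIn S X : Subgroup Ω) - Nat.card R) (by omega) hR hψ rfl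
  obtain ⟨Q, hPQ, hQ⟩ := exists_fullyNormalized N hPS
  have hconjT : ∀ {R : Subgroup Ω}, N.IsConj P R → R ≤ T ⊓ normalizerIn S X := by
    rintro R ⟨ψ, hψ, rfl⟩ _ ⟨x, rfl⟩
    exact hT.2 P hPT ψ hψ x
  have move : ∀ {R : Subgroup Ω}, N.IsConj P R → N.IsConj R Q →
      ∃ χ ∈ N.Hom R, χ.range = Q ∧ TFac N M R χ := by
    intro R hPR hRQ
    have hR := hconjT hPR
    obtain ⟨χ, hχ, hχr, ψ, hψ, hψe⟩ := exists_normalizer_map_fn hS' L.satN hQ hRQ
    have hne : R ≠ T ⊓ normalizerIn S X := fun hc =>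
      htop (Subgroup.eq_of_le_of_card_ge hPT (by rw [isConj_card hPR, hc]))
    obtain ⟨g, hg, hgR⟩ := exists_normalizing_not_mem hTp hR hne
    have hle : normalizerIn (T ⊓ normalizerIn S X) R ≤ normalizerIn (normalizerIn S X) R :=
      fun y hy => ⟨hTS hy.1, hy.2⟩
    have hlt := card_lt_of_le_of_mem (normalizerIn_le R) (le_normalizerIn hR) hg hgR
    have h1 := (big (normalizerIn_le R) (restrict_mem N hψ hle)
      (isConj_card hPR ▸ hlt)).restrict (le_normalizerIn hR)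
    have e : (ψ.comp (Subgroup.inclusion hle)).comp (Subgroup.inclusion (le_normalizerIn hR)) = χ :=
      MonoidHom.ext fun x => hψe x _
    exact ⟨χ, hχ, hχr, e ▸ h1⟩
  have hQT : Q ≤ T ⊓ normalizerIn S X := hconjT hPQ
  have hQS : Q ≤ normalizerIn S X := hQ.1
  have hQne : Q ≠ T ⊓ normalizerIn S X := fun hc =>
    htop (Subgroup.eq_of_le_of_card_ge hPT (by rw [isConj_card hPQ, hc]))
  have : Finite Q := finite_of_le hQS
  have : Finite (MulAut Q) := finite_mulAut Q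
  let D : Subgroup (N.autGroup Q) :=
    { carrier := {α | TFac N M Q (Q.subtype.comp (α : MulAut Q).toMonoidHom)}
      one_mem' := ⟨1, Subgroup.one_mem _, Q.subtype, subtype_mem M hQT,
        fun x => (autFun_one (hQT x.2)).symm⟩
      mul_mem' := fun {a b} ha hb => L.tfac_comp hM hMi hb ha fun x => ((b : MulAut Q) x).2
      inv_mem' := fun {a} ha => by
        refine L.tfac_inv hM hMi ha (range_subtype_comp _) fun x h => ?_
        show (((a : MulAut Q)⁻¹ ((a : MulAut Q) x) : Q) : Ω) = x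
        rw [MulAut.inv_apply, MulEquiv.symm_apply_apply] }
  obtain ⟨K, hKn, hKT, hKfac⟩ := L.exists_autK hM hMi hQT
  have hKD : K ≤ D := hKfac
  obtain ⟨⟨-, A, hA⟩, -, hrec⟩ := fullyNormalized_props hS' L.satN hQ
  obtain ⟨U, hU⟩ := exists_sylow_inter_normal A K
  have hUmap : (U : Subgroup K).map K.subtype = (A : Subgroup (N.autGroup Q)) ⊓ K := by
    rw [hU, Subgroup.map_subgroupOf_eq_of_le inf_le_right]
  have hnorm : Subgroup.normalizer
      (((U : Subgroup K).map K.subtype : Subgroup (N.autGroup Q)) : Set (N.autGroup Q)) ≤ D := by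
    intro α hα
    rw [hUmap] at hα
    obtain ⟨g, hg, hgQ⟩ := exists_normalizing_not_mem hTp hQT hQne
    have hgA : (⟨conjAut hg.2, autInducedBy_le_autGroup N hQS
        (conjAut_mem_autInducedBy hg.2 (hTS hg.1))⟩ : N.autGroup Q) ∈
          (A : Subgroup (N.autGroup Q)) ⊓ K := by
      refine ⟨?_, hKT g hg.1 hg.2 _⟩
      rw [hA]
      exact conjAut_mem_autInducedBy hg.2 (hTS hg.1)
    have h2 := ((Subgroup.mem_normalizer_iff.1 hα _).1 hgA).1
    rw [hA] at h2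
    have hαhom := (mem_autGroup_iff N hQS).1 α.2
    obtain ⟨ψ, hψ, hψe⟩ := hrec Q _ hαhom (range_subtype_comp _)
    have hgE := mem_extender_of_congr hαhom (range_subtype_comp _) (hTS hg.1) hg.2
      (by rw [congr_subtype_comp hαhom]; exact h2)
    have hQM : Q ≤ extender (normalizerIn S X) Q (Q.subtype.comp (α : MulAut Q).toMonoidHom) ⊓
        (T ⊓ normalizerIn S X) := le_inf (le_extender N hαhom) hQT
    have hlt := card_lt_of_le_of_mem (inf_le_right.trans hTS) hQM ⟨hgE, hg.1⟩ hgQ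
    have h1 := (big inf_le_right (restrict_mem N hψ inf_le_left)
      (isConj_card hPQ ▸ hlt)).restrict hQM
    have e : (ψ.comp (Subgroup.inclusion inf_le_left)).comp (Subgroup.inclusion hQM) =
        Q.subtype.comp (α : MulAut Q).toMonoidHom := MonoidHom.ext fun x => hψe x x.2 _
    show TFac N M Q (Q.subtype.comp (α : MulAut Q).toMonoidHom)
    rw [← e]
    exact h1
  have hD : D = ⊤ := top_unique ((Sylow.normalizer_sup_eq_top U).ge.trans (sup_le hnorm hKD))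
  obtain ⟨χ, hχ, hχr, hχC⟩ := move (isConj_refl N hPS) hPQ
  obtain ⟨χ', hχ', hχ'r, hχ'C⟩ := move (isConj_of_hom N hφ)
    (isConj_trans (isConj_symm (isConj_of_hom N hφ)) hPQ)
  obtain ⟨ξ, hξ, -, hξl, -⟩ := exists_inv N hχ hχr
  obtain ⟨ξ', hξ', -, hξ'l, -⟩ := exists_inv N hχ' hχ'r
  have hm1 : ∀ q : Q, ξ q ∈ P := fun q => by
    obtain ⟨x, hx⟩ : (q : Ω) ∈ χ.range := hχr.symm ▸ q.2
    have : ξ q = x := by
      rw [← hξl x (hx ▸ q.2)]; congr 1; exact Subtype.ext hx.symm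
    rw [this]; exact x.2
  have h1 : ∀ x : P, φ x ∈ φ.range := fun x => ⟨x, rfl⟩
  let β : Q →* Ω := χ'.comp ((φ.codRestrict φ.range h1).comp (ξ.codRestrict P hm1))
  have hβ : β ∈ N.Hom Q :=
    hom_of_comp N (N.comp_mem hξ hφ hm1) hχ' (fun q => ⟨_, rfl⟩) fun q => rfl
  have hβr : β.range = Q := by
    refine Subgroup.eq_of_le_of_card_ge ?_ (isConj_card (isConj_of_hom N hβ)).le
    rintro _ ⟨q, rfl⟩
    exact hχ'r.le ⟨_, rfl⟩
  have hβC : TFac N M Q (Q.subtype.comp (isoOf hβ hβr).toMonoidHom) := by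
    have : (⟨_, isoOf_mem_autGroup hβ hβr⟩ : N.autGroup Q) ∈ D := hD ▸ Subgroup.mem_top _
    exact this
  have h3 := L.tfac_comp hM hMi hχC hβC fun x => hχr.le ⟨x, rfl⟩
  have h4 := L.tfac_comp hM hMi h3 (L.tfac_inv hM hMi hχ'C hχ'r hξ'l) fun x =>
    (isoOf hβ hβr ⟨χ x, hχr.le ⟨x, rfl⟩⟩).2
  convert h4 using 1
  refine MonoidHom.ext fun x => ?_
  have hx : χ x ∈ Q := hχr.le ⟨x, rfl⟩
  have e : ξ ⟨χ x, hx⟩ = (x : Ω) := hξl x hx
  show φ x = ξ' ⟨χ' ⟨φ ⟨ξ ⟨χ x, hx⟩, _⟩, _⟩, _⟩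
  exact (congrArg φ (Subtype.ext e.symm)).trans (hξ'l ⟨_, _, rfl⟩ _).symm

/-- The subsystem over `N_T(X)` is weakly normal in the normalizer. -/
theorem weaklyNormal_m : M.IsWeaklyNormalIn N p := by
  refine ⟨hM, L.satN, fun P φ h => L.gx_sub _ (hMi.1 P h), L.closedT₀,
    fun P hPT φ hφ a ha => ?_, fun P hP φ hφ => ?_⟩
  · obtain ⟨χ, hχ, hχe⟩ := L.transport hM hMi ha hφ
    refine ⟨χ, hχ, fun x hφx hax => ?_⟩
    rw [← autFun_apply a hφx]
    refine Eq.trans ?_ (hχe x (autFun_mem_autImg a hPT x.2))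
    congr 1
    exact Subtype.ext (autFun_apply a (hPT x.2)).symm
  · obtain ⟨a, ha, φ₀, h₀, he⟩ := L.tfac_of_hom hM hMi hP hφ
    exact ⟨a, ha, φ₀, h₀, fun x hx => (he x).trans (autFun_apply a hx)⟩

end Loc

end CfsgLib.Balance72
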