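import Cfsg.Agent.Fus.Balance72.Res

/-!
The automizers of the subsystems of `p`-power index of the product of a normal subsystem with the
base are permuted by all maps of the whole system.
-/

set_option autoImplicit false

namespace CfsgLib.Balance72

open Cfsg Cfsg.FusionSystem CfsgLib.Fus CfsgLib.NormalCent CfsgLib.Product89

variable {Ω : Type*} [Group Ω] {S T : Subgroup Ω}

/-- The automorphisms correspond along `f`. -/
def Rel (f : Ω → Ω) {Q Q' : Subgroup Ω} (a : MulAut Q) (a' : MulAut Q') : Prop :=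
  ∀ (x : Q) (h : f x ∈ Q'), ((a' ⟨f x, h⟩ : Q') : Ω) = f (a x)

/-- The automizers correspond along `f`, in both directions. -/
def Tra (G : Cfsg.FusionSystem S) (T : Subgroup Ω) (p : ℕ) (f : Ω → Ω) (P : Subgroup Ω) : Prop :=
  ∀ Q ≤ P, ∀ Q' : Subgroup Ω, f '' (Q : Set Ω) = Q' →
    (∀ a ∈ aut G T p Q, ∃ a' ∈ aut G T p Q', Rel f a a') ∧
      ∀ a' ∈ aut G T p Q', ∃ a ∈ aut G T p Q, Rel f a a'

theorem Rel.symm {F : Cfsg.FusionSystem S} {W : Subgroup Ω} {f g : Ω → Ω} {Q Q' : Subgroup Ω}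
    (hf : Mor F W f) (hQW : Q ≤ W) (hQ' : f '' (Q : Set Ω) = Q') (hgf : ∀ x ∈ W, g (f x) = x)
    {a : MulAut Q} {a' : MulAut Q'} (h : Rel g a' a) : Rel f a a' := by
  intro x hx
  have h1 := h ⟨f x, hx⟩ ((hgf x (hQW x.2)).symm ▸ x.2)
  have e : (⟨g (f x), (hgf x (hQW x.2)).symm ▸ x.2⟩ : Q) = x := Subtype.ext (hgf x (hQW x.2))
  rw [e] at h1
  obtain ⟨z, hz, hze⟩ := (show ((a' ⟨f x, hx⟩ : Q') : Ω) ∈ f '' (Q : Set Ω) from
    hQ' ▸ (a' ⟨f x, hx⟩).2)
  rw [← hze, hgf z (hQW hz)] at h1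
  rw [← hze, h1]

namespace Prod

variable [Finite S] {p : ℕ} [Fact p.Prime] {F : Cfsg.FusionSystem S} {E : Cfsg.FusionSystem T}
  {G : Cfsg.FusionSystem S} (K : Prod F E G p)

include K

theorem mem_aut_of_sub {R Q : Subgroup Ω} (hQ : Q ≤ S) (hR : R = T ⊔ Q)
    {H : Cfsg.FusionSystem R} (hH : H.IsSaturated p) (hHi : H.HasPPowerIndexIn G p)
    {a : MulAut Q} (ha : a ∈ H.autGroup Q) : a ∈ aut G T p Q := by
  subst hR
  exact (K.mem_aut_iff hQ hH hHi).2 ha

/-- Maps of the product are conjugations after maps of each subsystem of `p`-power index. -/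
theorem exists_dec : ∀ (d : ℕ) {R : Subgroup Ω}, Nat.card S < Nat.card R + d → T ≤ R → R ≤ S →
    ∀ {H : Cfsg.FusionSystem R}, H.IsSaturated p → H.HasPPowerIndexIn G p →
      ∀ {P : Subgroup Ω}, P ≤ R → ∀ {φ : P →* Ω}, φ ∈ G.Hom P →
        ∃ s ∈ S, ∃ φ₀ ∈ H.Hom P, ∀ x : P, φ x = s * φ₀ x * s⁻¹ := by
  intro d
  induction d with
  | zero =>
    intro R h _ hR
    have := Subgroup.card_le_of_le hR
    omega
  | succ d ih =>
    intro R hk hTR hR H hH hHi P hPR φ hφ
    by_cases hRS : R = S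
    · subst hRS
      obtain rfl : H = G := FusAut.hom_eq_of_pPowerIndex K.hS le_rfl hH K.hG hHi
        ⟨fun _ _ h => h, hyperfocalSubgroup_le_S (p := p) G, fun _ _ => Subgroup.map_subtype_le _⟩
      exact ⟨1, one_mem _, φ, hφ, fun x => by simp⟩
    obtain ⟨g, hg, hgR⟩ := Fusion.Alperin.exists_normalizing_not_mem K.hS hR hRS
    have hlt : Nat.card R < Nat.card (normalizerIn S R) :=
      Fusion.Alperin.card_lt_of_le_of_mem (normalizerIn_le R) (le_normalizerIn hR) hg hgR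
    set R' := normalizerIn S R
    have hRR' : R ≤ R' := le_normalizerIn hR
    have hR' : R' ≤ S := normalizerIn_le R
    have : Finite R := finite_of_le hR
    have : Finite R' := finite_of_le hR'
    obtain ⟨H', hH', hH'i⟩ := K.exists_sub (hTR.trans hRR') hR'
    obtain ⟨s, hs, φ₁, hφ₁, he⟩ := ih (R := R') (by omega) (hTR.trans hRR') hR' hH' hH'i
      (hPR.trans hRR') hφ
    have hi : H.HasPPowerIndexIn H' p := by
      refine ⟨FusAut.hom_subset_of_pResidual (K.hS.to_le hR) hH H' hRR' fun Q hQ => ?_, ?_,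
        fun Q hQ => ?_⟩
      · exact (FusAut.map_pResidual_mono (autGroup_mono hHi.1 Q)).trans
          (hH'i.2.2 Q (hQ.trans hRR'))
      · exact ((FusAut.hyperfocal_mono hH'i.1 hR').trans K.hidx.2.1).trans hTR
      · exact (FusAut.map_pResidual_mono (autGroup_mono hH'i.1 Q)).trans (hHi.2.2 Q hQ)
    obtain ⟨t, ht, φ₀, hφ₀, he₀⟩ := PPowerExist.fac_of_hom (K.hS.to_le hR') hH' hRR'
      ⟨fun _ hx r => conj_mem_of_normalizer r.2.2 hx⟩
      (((FusAut.hyperfocal_mono hH'i.1 hR').trans K.hidx.2.1).trans hTR) hH hi hφ₁ P le_rfl hPR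
    refine ⟨s * t, mul_mem hs (hR' ht), φ₀, hφ₀, fun x => ?_⟩
    have h1 := he₀ x
    rw [he x, show φ₁ x = t * φ₀ x * t⁻¹ from h1]
    group

/-- A map of a subsystem of `p`-power index does not change the product with `T`. -/
theorem sup_range {Q : Subgroup Ω} (hQ : Q ≤ S) {H : Cfsg.FusionSystem (T ⊔ Q : Subgroup Ω)}
    (hH : H.IsSaturated p) (hHi : H.HasPPowerIndexIn G p) {φ : Q →* Ω} (hφ : φ ∈ H.Hom Q) :
    T ⊔ φ.range = T ⊔ Q := by
  have hR : T ⊔ Q ≤ S := sup_le K.hTS hQ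
  have : Finite (T ⊔ Q : Subgroup Ω) := finite_of_le hR
  refine le_antisymm (sup_le le_sup_left (range_le H hφ)) ?_
  obtain ⟨r, hr, hre⟩ := FusTate.exists_conj_mod_hyperfocal (K.hS.to_le hR) hH hφ
  have hle : T ⊔ Q ≤ (T ⊔ φ.range).comap (MulAut.conj r).toMonoidHom := by
    refine sup_le (fun x hx => Subgroup.mem_sup_left (conj_mem_T K.hE (hR hr) hx)) fun x hx => ?_
    show r * x * r⁻¹ ∈ T ⊔ φ.range
    have h1 := (FusAut.hyperfocal_mono hHi.1 hR).trans K.hidx.2.1 (hre ⟨x, hx⟩)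
    have e : r * x * r⁻¹ = φ ⟨x, hx⟩ * ((r * x * r⁻¹)⁻¹ * φ ⟨x, hx⟩)⁻¹ := by group
    rw [e]
    exact mul_mem (Subgroup.mem_sup_right ⟨_, rfl⟩) (Subgroup.mem_sup_left (inv_mem h1))
  intro y hy
  have h2 := hle (mul_mem (mul_mem (inv_mem hr) hy) hr)
  change r * (r⁻¹ * y * r) * r⁻¹ ∈ T ⊔ φ.range at h2
  rwa [show r * (r⁻¹ * y * r) * r⁻¹ = y by group] at h2

/-- Transport of the automizers along maps of the product. -/
theorem aut_transport_prod {Q Q' : Subgroup Ω} {f : Ω → Ω} (hf : Mor G Q f)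
    (hQ' : f '' (Q : Set Ω) = Q') {a : MulAut Q} (ha : a ∈ aut G T p Q) :
    ∃ a' ∈ aut G T p Q', Rel f a a' := by
  have hQS : Q ≤ S := hf.le
  obtain ⟨φ, hφ, e⟩ := hf
  have hR : T ⊔ Q ≤ S := sup_le K.hTS hQS
  obtain ⟨H, hH, hHi⟩ := K.exists_sub le_sup_left hR
  obtain ⟨s, hs, φ₀, hφ₀, he⟩ := K.exists_dec (Nat.card S + 1)
    (by have : Finite (T ⊔ Q : Subgroup Ω) := finite_of_le hR; omega) le_sup_left hR hH hHi
    le_sup_right hφ
  have haH := (K.mem_aut_iff hQS hH hHi).1 ha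
  have hQ₀S : φ₀.range ≤ S := (range_le H hφ₀).trans hR
  have ha₀ := K.mem_aut_of_sub hQ₀S (K.sup_range hQS hH hHi hφ₀).symm hH hHi
    (congr_mem_autGroup hφ₀ rfl haH)
  have himg : (fun x => s * x * s⁻¹) '' (φ₀.range : Set Ω) = Q' := by
    rw [← hQ']
    ext y
    constructor
    · rintro ⟨_, ⟨x, rfl⟩, rfl⟩
      exact ⟨x, x.2, ((e x).symm.trans (he x))⟩
    · rintro ⟨x, hx, rfl⟩
      exact ⟨_, ⟨⟨x, hx⟩, rfl⟩, ((e ⟨x, hx⟩).symm.trans (he ⟨x, hx⟩)).symm⟩
  obtain ⟨a', ha', hae⟩ := K.aut_transport (mor_conj (F := F) le_rfl hs)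
    (sup_le K.hTS hQ₀S) himg ha₀
  refine ⟨a', ha', fun x h => ?_⟩
  have hx : f x = s * φ₀ x * s⁻¹ := (e x).symm.trans (he x)
  have h1 := hae (isoOf hφ₀ rfl x) (show s * φ₀ x * s⁻¹ ∈ Q' from hx ▸ h)
  rw [show f ((a x : Q) : Ω) = s * φ₀ (a x) * s⁻¹ from (e (a x)).symm.trans (he (a x))]
  refine Eq.trans (congrArg (fun z => ((a' z : Q') : Ω)) (Subtype.ext hx)) (h1.trans ?_)
  show s * ((isoOf hφ₀ rfl (a ((isoOf hφ₀ rfl).symm (isoOf hφ₀ rfl x))) : φ₀.range) : Ω) * s⁻¹ = _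
  rw [MulEquiv.symm_apply_apply]
  rfl

theorem tra_prod {P : Subgroup Ω} {f : Ω → Ω} (hf : Mor G P f) : Tra G T p f P := by
  intro Q hQP Q' hQ'
  refine ⟨fun a ha => K.aut_transport_prod (hf.restrict hQP) hQ' ha, fun a' ha' => ?_⟩
  obtain ⟨g, hg, hgf, -, hgQ⟩ := (hf.restrict hQP).exists_inv hQ'
  obtain ⟨a, ha, h⟩ := K.aut_transport_prod hg hgQ ha'
  exact ⟨a, ha, h.symm (hf.restrict hQP) le_rfl hQ' hgf⟩

theorem tra_of_le {P : Subgroup Ω} {f : Ω → Ω} (hf : Mor F P f) (hTP : T ≤ P) :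
    Tra G T p f P := by
  intro Q hQP Q' hQ'
  refine ⟨fun a ha => K.aut_transport hf (sup_le hTP hQP) hQ' ha, fun a' ha' => ?_⟩
  obtain ⟨P', hP', -⟩ := hf.exists_img (le_refl P)
  obtain ⟨g, hg, hgf, -, -⟩ := hf.exists_inv hP'
  have hgQ : g '' (Q' : Set Ω) = Q := by
    rw [← hQ']
    ext y
    constructor
    · rintro ⟨_, ⟨x, hx, rfl⟩, rfl⟩
      rw [hgf x (hQP hx)]
      exact hx
    · exact fun hy => ⟨f y, ⟨y, hy, rfl⟩, hgf y (hQP hy)⟩
  have hle : T ⊔ Q' ≤ P' := by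
    refine sup_le (fun x hx => ?_) fun x hx => ?_
    · have hx' : x ∈ f '' (T : Set Ω) := (K.image_T hf hTP).symm ▸ hx
      obtain ⟨z, hz, rfl⟩ := hx'
      exact (hP' ▸ ⟨z, hTP hz, rfl⟩ : f z ∈ (P' : Set Ω))
    · obtain ⟨z, hz, rfl⟩ := (show x ∈ f '' (Q : Set Ω) from hQ' ▸ hx)
      exact (hP' ▸ ⟨z, hQP hz, rfl⟩ : f z ∈ (P' : Set Ω))
  obtain ⟨a, ha, h⟩ := K.aut_transport hg hle hgQ ha'
  exact ⟨a, ha, Rel.symm hf hQP hQ' hgf h⟩

omit K [Finite S] [Fact p.Prime] in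
theorem tra_congr {P : Subgroup Ω} {f g : Ω → Ω} (h : Tra G T p f P) (e : ∀ x ∈ P, g x = f x) :
    Tra G T p g P := by
  intro Q hQP Q' hQ'
  have hQ'' : f '' (Q : Set Ω) = Q' :=
    (Set.EqOn.image_eq (f₁ := g) (f₂ := f) fun x hx => e x (hQP hx)).symm.trans hQ'
  obtain ⟨h1, h2⟩ := h Q hQP Q' hQ''
  have key : ∀ {a : MulAut Q} {a' : MulAut Q'}, Rel f a a' → Rel g a a' := by
    intro a a' hr x hx
    rw [e _ (hQP (a x).2), ← hr x (e x (hQP x.2) ▸ hx)]
    congr 2
    exact Subtype.ext (e x (hQP x.2))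
  exact ⟨fun a ha => (h1 a ha).imp fun _ h => ⟨h.1, key h.2⟩,
    fun a ha => (h2 a ha).imp fun _ h => ⟨h.1, key h.2⟩⟩

omit K [Fact p.Prime] in
theorem tra_comp {A B : Subgroup Ω} {f g : Ω → Ω} (hf : Mor F A f) (hA : ∀ x ∈ A, f x ∈ B)
    (h1 : Tra G T p f A) (h2 : Tra G T p g B) : Tra G T p (g ∘ f) A := by
  intro Q hQA Q' hQ'
  obtain ⟨Q₁, hQ₁, -⟩ := hf.exists_img hQA
  have hQ₁B : Q₁ ≤ B := fun y hy => by
    obtain ⟨x, hx, rfl⟩ := (show y ∈ f '' (Q : Set Ω) from hQ₁ ▸ hy)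
    exact hA x (hQA hx)
  have hQ₁' : g '' (Q₁ : Set Ω) = Q' := by rw [← hQ₁, ← Set.image_comp, hQ']
  obtain ⟨f1, f2⟩ := h1 Q hQA Q₁ hQ₁
  obtain ⟨g1, g2⟩ := h2 Q₁ hQ₁B Q' hQ₁'
  have key : ∀ {a : MulAut Q} {b : MulAut Q₁} {a' : MulAut Q'}, Rel f a b → Rel g b a' →
      Rel (g ∘ f) a a' := by
    intro a b a' hab hba x hx
    have hfx : f x ∈ Q₁ := (hQ₁ ▸ ⟨x, x.2, rfl⟩ : f x ∈ (Q₁ : Set Ω))
    show ((a' ⟨g (f x), hx⟩ : Q') : Ω) = g (f ((a x : Q) : Ω))
    rw [← hab x hfx]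
    exact hba ⟨f x, hfx⟩ hx
  refine ⟨fun a ha => ?_, fun a' ha' => ?_⟩
  · obtain ⟨b, hb, hab⟩ := f1 a ha
    obtain ⟨a', ha', hba⟩ := g1 b hb
    exact ⟨a', ha', key hab hba⟩
  · obtain ⟨b, hb, hba⟩ := g2 a' ha'
    obtain ⟨a, ha, hab⟩ := f2 b hb
    exact ⟨a, ha, key hab hba⟩

omit K [Fact p.Prime] in
theorem tra_inv {A B : Subgroup Ω} {f g : Ω → Ω} (hg : Mor F B g) (hgA : ∀ y ∈ B, g y ∈ A)
    (hfg : ∀ y ∈ B, f (g y) = y) (h1 : Tra G T p f A) : Tra G T p g B := by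
  intro Q hQB Q' hQ'
  have hQ'A : Q' ≤ A := fun y hy => by
    obtain ⟨x, hx, rfl⟩ := (show y ∈ g '' (Q : Set Ω) from hQ' ▸ hy)
    exact hgA x (hQB hx)
  have hfQ' : f '' (Q' : Set Ω) = Q := by
    rw [← hQ']
    ext y
    constructor
    · rintro ⟨_, ⟨x, hx, rfl⟩, rfl⟩
      rw [hfg x (hQB hx)]
      exact hx
    · exact fun hy => ⟨g y, ⟨y, hy, rfl⟩, hfg y (hQB hy)⟩
  obtain ⟨f1, f2⟩ := h1 Q' hQ'A Q hfQ'
  have key : ∀ {a : MulAut Q} {a' : MulAut Q'}, Rel f a' a → Rel g a a' :=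
    fun hr => hr.symm hg hQB hQ' hfg
  exact ⟨fun a ha => (f2 a ha).imp fun _ h => ⟨h.1, key h.2⟩,
    fun a ha => (f1 a ha).imp fun _ h => ⟨h.1, key h.2⟩⟩

/-- The automizers are permuted by all maps of the whole system. -/
theorem tra : ∀ {P : Subgroup Ω} {f : Ω → Ω}, Mor F P f → Tra G T p f P := by
  have hF := K.hF
  have hS := K.hS
  have hTS := K.hTS
  have hE := K.hE
  have : Finite T := finite_of_le hTS
  suffices ∀ d, ∀ P : Subgroup Ω, ∀ φ : P →* Ω, φ ∈ F.Hom P →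
      Nat.card T < Nat.card (P ⊓ T : Subgroup Ω) + d →
      ∀ f : Ω → Ω, (∀ x : P, f x = φ x) → Tra G T p f P by
    intro P f hf
    obtain ⟨φ, hφ, e⟩ := hf
    refine this (Nat.card T + 1) P φ hφ ?_ f fun x => (e x).symm
    have : Finite (P ⊓ T : Subgroup Ω) := finite_of_le (inf_le_right.trans hTS)
    omega
  intro d
  induction d with
  | zero =>
    intro P φ hφ h
    have := Subgroup.card_le_of_le (inf_le_right : P ⊓ T ≤ T)
    omega
  | succ d ih =>
    intro P φ hφ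
    refine CfsgLib.Fusion.Alperin.hom_induction hS hF (C := fun P φ =>
      Nat.card T < Nat.card (P ⊓ T : Subgroup Ω) + (d + 1) →
        ∀ f : Ω → Ω, (∀ x : P, f x = φ x) → Tra G T p f P) ?_ ?_ ?_ ?_ hφ
    · intro P hP a ha hk f hfe
      have hPS : P ≤ S := hP.centric.1
      by_cases hd : Nat.card T < Nat.card (P ⊓ T : Subgroup Ω) + d
      · exact ih P _ ((mem_autGroup_iff F hPS).1 ha) hd f hfe
      by_cases hTP : T ≤ P
      · exact K.tra_of_le ⟨_, (mem_autGroup_iff F hPS).1 ha, fun x => (hfe x).symm⟩ hTP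
      have : Finite P := finite_of_le hPS
      have := finite_mulAut P
      set Q := P ⊓ T
      have htc : TCentric F T Q := tcentric_inter hS hE hP.centric hP.radical
      have hQP : Q ≤ P := inf_le_left
      have hQT : Q ≤ T := inf_le_right
      have : Finite Q := finite_of_le (hQP.trans hPS)
      obtain ⟨⟨-, U, hU⟩, hrec⟩ := fullyNormalized_props hS hF hP.fullyNormalized
      have hinv : ∀ (b : F.autGroup P) (y : P), (y : Ω) ∈ Q →
          (((b : MulAut P) y : P) : Ω) ∈ Q := by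
        intro b y hy
        obtain ⟨h, hh, hhe, -⟩ := exists_mor_of_aut hPS b
        refine ⟨((b : MulAut P) y).2, ?_⟩
        rw [← hhe y]
        exact mor_mem_T hE hh y.2 hy.2
      let M : Subgroup (F.autGroup P) :=
        { carrier := {b | (∀ y : P, (y : Ω)⁻¹ * (((b : MulAut P) y : P) : Ω) ∈ T) ∧
            ∃ c ∈ E.autGroup Q, ∀ y : Q, ((c y : Q) : Ω) =
              (((b : MulAut P) (Subgroup.inclusion hQP y) : P) : Ω)}
          one_mem' := ⟨fun y => by simp, 1, Subgroup.one_mem _, fun y => rfl⟩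
          mul_mem' := fun {a b} ha hb => ⟨fun y => by
            have h2 := T.mul_mem (hb.1 y) (ha.1 ((b : MulAut P) y))
            rw [mul_assoc, mul_inv_cancel_left] at h2
            exact h2, by
            obtain ⟨c, hc, hce⟩ := ha.2
            obtain ⟨c', hc', hce'⟩ := hb.2
            refine ⟨c * c', Subgroup.mul_mem _ hc hc', fun y => ?_⟩
            show _ = (((a : MulAut P) ((b : MulAut P) _) : P) : Ω)
            rw [show (b : MulAut P) (Subgroup.inclusion hQP y) = Subgroup.inclusion hQP (c' y) from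
              Subtype.ext (hce' y).symm]
            exact hce (c' y)⟩
          inv_mem' := fun {a} ha => ⟨fun y => by
            have h1 := T.inv_mem (ha.1 ((a : MulAut P)⁻¹ y))
            rw [MulAut.apply_inv_self, mul_inv_rev, inv_inv] at h1
            exact h1, by
            obtain ⟨c, hc, hce⟩ := ha.2
            refine ⟨c⁻¹, Subgroup.inv_mem _ hc, fun y => ?_⟩
            have h1 : (a : MulAut P) (Subgroup.inclusion hQP (c⁻¹ y)) = Subgroup.inclusion hQP y :=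
              Subtype.ext ((hce (c⁻¹ y)).symm.trans (by rw [MulAut.apply_inv_self]; rfl))
            show _ = (((a : MulAut P)⁻¹ _ : P) : Ω)
            rw [← h1, MulAut.inv_apply_self]
            rfl⟩ }
      have hMn : M.Normal := by
        refine ⟨fun k hk g => ⟨fun y => ?_, ?_⟩⟩
        · set u : P := (g : MulAut P)⁻¹ y
          have h1 : ((u⁻¹ * (k : MulAut P) u : P) : Ω) ∈ Q :=
            ⟨SetLike.coe_mem _, by rw [Subgroup.coe_mul, Subgroup.coe_inv]; exact hk.1 u⟩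
          have h2 := (hinv g _ h1).2
          rw [map_mul, map_inv, show (g : MulAut P) u = y from MulAut.apply_inv_self _ _ _] at h2
          exact h2
        · obtain ⟨c, hc, hce⟩ := hk.2
          let ψ : Q →* Ω := (P.subtype.comp (g : MulAut P).toMonoidHom).comp
            (Subgroup.inclusion hQP)
          have hψ : ψ ∈ F.Hom Q :=
            restrict_mem F ((mem_autGroup_iff F hPS).1 g.2) hQP
          have hψr : ψ.range = Q := by
            refine Subgroup.eq_of_le_of_card_ge ?_ (isConj_card ⟨ψ, hψ, rfl⟩).le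
            rintro _ ⟨y, rfl⟩
            exact hinv g _ y.2
          refine ⟨_, congr_mem_E hE hψ hψr hQT hc, fun y => ?_⟩
          obtain ⟨u, rfl⟩ := (isoOf hψ hψr).surjective y
          show _ = (((g : MulAut P) ((k : MulAut P) ((g : MulAut P)⁻¹ _)) : P) : Ω)
          rw [show Subgroup.inclusion hQP (isoOf hψ hψr u) =
              (g : MulAut P) (Subgroup.inclusion hQP u) from Subtype.ext rfl,
            MulAut.inv_apply_self,
            show (k : MulAut P) (Subgroup.inclusion hQP u) = Subgroup.inclusion hQP (c u) from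
              Subtype.ext (hce u).symm]
          show ((isoOf hψ hψr (c ((isoOf hψ hψr).symm (isoOf hψ hψr u))) : Q) : Ω) = _
          rw [MulEquiv.symm_apply_apply, isoOf_apply]
          rfl
      obtain ⟨V, hV⟩ := sylow_inf_normal U M
      have hUG : ∀ u ∈ (U : Subgroup (F.autGroup P)), (u : MulAut P) ∈ G.autGroup P := by
        intro u hu
        rw [hU] at hu
        exact autInducedBy_le_autGroup G hPS hu
      have hMG : ∀ b ∈ M, (b : MulAut P) ∈ G.autGroup P := by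
        let D : Subgroup M := (G.autGroup P).comap ((F.autGroup P).subtype.comp M.subtype)
        have hD : D = ⊤ := eq_top_of_sylow_of_coprime V
          (fun v hv => hUG _ (show (v : F.autGroup P) ∈ (U : Subgroup (F.autGroup P)) ⊓ M from
            hV ▸ ⟨v, hv, rfl⟩).1)
          fun b hb => K.gen P _
            { le := hPS
              mem := (b : F.autGroup P).2
              coprime := by
                show (orderOf ((b : F.autGroup P) : MulAut P)).Coprime p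
                rw [Subgroup.orderOf_coe, Subgroup.orderOf_coe]
                exact hb
              tc := htc
              disp := b.2.1
              res := b.2.2 }
        intro b hb
        exact (hD.symm ▸ Subgroup.mem_top (⟨b, hb⟩ : M) : (⟨b, hb⟩ : M) ∈ D)
      have htop : Subgroup.normalizer
          (((U : Subgroup (F.autGroup P)) ⊓ M : Subgroup (F.autGroup P)) : Set _) ⊔ M = ⊤ := by
        have := Sylow.normalizer_sup_eq_top V
        rwa [hV] at this
      obtain ⟨m, hm, n, hn, hmn⟩ := Subgroup.mem_sup_of_normal_right.1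
        (show (⟨a, ha⟩ : F.autGroup P) ∈ _ ⊔ M by rw [htop]; exact Subgroup.mem_top _)
      -- the normalizing factor extends
      have hφ' := (mem_autGroup_iff F hPS).1 m.2
      set L := Cfsg.FusionSystem.extender S P (P.subtype.comp (m : MulAut P).toMonoidHom)
      obtain ⟨ψ, hψ, hψe⟩ := hrec.2 P _ hφ' (range_subtype_comp (m : MulAut P))
      have hPL : P ≤ L := le_extender F hφ'
      obtain ⟨t₀, ht₀, ht₀N, ht₀P⟩ := exists_normalizing_in hS hPS hTS
        (fun y hy t ht => conj_mem_T hE (hPS hy) ht) hTP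
      have ht₀L : t₀ ∈ L := by
        refine mem_extender_of_congr hφ' (range_subtype_comp (m : MulAut P)) (hTS ht₀) ht₀N ?_
        rw [Fusion.Alperin.congr_subtype_comp]
        set c : F.autGroup P := ⟨conjAut ht₀N,
          autInducedBy_le_autGroup F hPS (conjAut_mem_autInducedBy ht₀N (hTS ht₀))⟩
        have hcU : c ∈ (U : Subgroup (F.autGroup P)) := by
          rw [hU]; exact conjAut_mem_autInducedBy ht₀N (hTS ht₀)
        have hcM : c ∈ M := by
          have hcd : ∀ y : P, (y : Ω)⁻¹ * (t₀ * (y : Ω) * t₀⁻¹) ∈ T := fun y => by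
            have h1 := T.mul_mem (conj_mem_T hE (S.inv_mem (hPS y.2)) ht₀) (T.inv_mem ht₀)
            convert h1 using 1
            group
          refine ⟨fun y => hcd y, ?_⟩
          have htQ : t₀ ∈ Subgroup.normalizer (Q : Set Ω) := by
            refine Subgroup.mem_normalizer_fintype fun q hq => ⟨conj_mem_of_normalizer ht₀N hq.1, ?_⟩
            exact T.mul_mem (T.mul_mem ht₀ hq.2) (T.inv_mem ht₀)
          exact ⟨conjAut htQ, autInducedBy_le_autGroup E hQT (conjAut_mem_autInducedBy htQ ht₀),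
            fun y => by rw [conjAut_apply]; rfl⟩
        have h1 : m * c * m⁻¹ ∈ (U : Subgroup (F.autGroup P)) :=
          ((Subgroup.mem_normalizer_iff.1 hm c).1 ⟨hcU, hcM⟩).1
        rw [hU] at h1
        exact h1
      have hlt : Nat.card Q < Nat.card (L ⊓ T : Subgroup Ω) :=
        Fusion.Alperin.card_lt_of_le_of_mem (inf_le_right.trans hTS)
          (le_inf (hQP.trans hPL) hQT) (⟨ht₀L, ht₀⟩ : t₀ ∈ L ⊓ T) fun h => ht₀P h.1
      obtain ⟨τ, hτ, hτe⟩ := exists_mor hψ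
      have hτm : ∀ y : P, τ y = (((m : MulAut P) y : P) : Ω) := fun y =>
        (hτe (Subgroup.inclusion hPL y)).trans (hψe y y.2 _)
      obtain ⟨h, hh, hhe, -⟩ := exists_mor_of_aut hPS ⟨(n : MulAut P), hMG n hn⟩
      have hhF : Mor F P h := by
        obtain ⟨χ, hχ, hχe⟩ := hh
        exact ⟨χ, K.hGF P hχ, hχe⟩
      have hTτ : Tra G T p τ P := fun R hR => ih L ψ hψ (by omega) τ hτe R (hR.trans hPL)
      refine tra_congr (tra_comp hhF (fun y hy => ?_) (K.tra_prod hh) hTτ) fun y hy => ?_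
      · rw [show h y = _ from hhe ⟨y, hy⟩]
        exact SetLike.coe_mem _
      · show f y = τ (h y)
        rw [show h y = _ from hhe ⟨y, hy⟩, hτm, show f y = _ from hfe ⟨y, hy⟩]
        show ((a ⟨y, hy⟩ : P) : Ω) = _
        rw [show a = (m : MulAut P) * (n : MulAut P) from (congrArg Subtype.val hmn).symm]
        rfl
    · intro A B hAB ψ hψ hC hk f hfe
      have : Finite (B ⊓ T : Subgroup Ω) := finite_of_le (inf_le_right.trans hTS)
      have := Subgroup.card_le_of_le (inf_le_inf_right T hAB)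
      obtain ⟨g, -, hge⟩ := exists_mor hψ
      refine tra_congr (fun Q hQ => hC (by omega) g hge Q (hQ.trans hAB)) fun x hx => ?_
      rw [show f x = _ from hfe ⟨x, hx⟩]
      exact (hge (Subgroup.inclusion hAB ⟨x, hx⟩)).symm
    · intro A B φ ψ hφ hψ h hA hB hk f hfe
      have : Finite (B ⊓ T : Subgroup Ω) := finite_of_le (inf_le_right.trans hTS)
      obtain ⟨g, hg, hge⟩ := exists_mor hφ
      obtain ⟨g', hg', hge'⟩ := exists_mor hψ
      have hgB : ∀ x ∈ A, g x ∈ B := fun x hx => by rw [show g x = _ from hge ⟨x, hx⟩]; exact h _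
      have hcard : Nat.card (A ⊓ T : Subgroup Ω) ≤ Nat.card (B ⊓ T : Subgroup Ω) :=
        hg.card_le inf_le_left fun y hy => ⟨hgB y hy.1, mor_mem_T hE hg hy.1 hy.2⟩
      refine tra_congr (tra_comp hg hgB (hA hk g hge) (hB (by omega) g' hge')) fun x hx => ?_
      show f x = g' (g x)
      rw [show g x = _ from hge ⟨x, hx⟩, show f x = _ from hfe ⟨x, hx⟩]
      exact (hge' ⟨φ ⟨x, hx⟩, h _⟩).symm
    · intro A B φ ψ hφ hψ hr hinv hA hk f hfe
      obtain ⟨g, hg, hge⟩ := exists_mor hφ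
      have hf : Mor F B f := ⟨ψ, hψ, fun x => (hfe x).symm⟩
      have hkey : ∀ y ∈ B, f y ∈ A ∧ g (f y) = y := fun y hy => by
        obtain ⟨u, hu⟩ : y ∈ φ.range := hr.symm ▸ hy
        have hfy : f y = (u : Ω) := by
          rw [show f y = _ from hfe ⟨y, hy⟩, ← hinv u (hu.symm ▸ hy)]
          exact congrArg ψ (Subtype.ext hu.symm)
        exact ⟨hfy ▸ u.2, by rw [hfy, show g u = _ from hge u, hu]⟩
      have hAfin : Finite (A ⊓ T : Subgroup Ω) := finite_of_le (inf_le_right.trans hTS)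
      have hcard : Nat.card (B ⊓ T : Subgroup Ω) ≤ Nat.card (A ⊓ T : Subgroup Ω) :=
        hf.card_le inf_le_left fun z hz => ⟨(hkey z hz.1).1, mor_mem_T hE hf hz.1 hz.2⟩
      exact tra_inv hf (fun y hy => (hkey y hy).1) (fun y hy => (hkey y hy).2)
        (hA (by omega) g hge)

/-- The automizer is normal in that of the whole system. -/
theorem conj_mem_aut {P : Subgroup Ω} (hP : P ≤ S) {a b : MulAut P} (ha : a ∈ F.autGroup P)
    (hb : b ∈ aut G T p P) : a * b * a⁻¹ ∈ aut G T p P := by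
  obtain ⟨f, hf, hfe, hfP⟩ := exists_mor_of_aut hP ⟨a, ha⟩
  obtain ⟨b', hb', hrel⟩ := (K.tra hf P le_rfl P hfP).1 b hb
  convert hb' using 1
  refine MulEquiv.ext fun y => ?_
  obtain ⟨x, rfl⟩ := a.surjective y
  show a (b (a⁻¹ (a x))) = _
  rw [MulAut.inv_apply_self]
  refine Subtype.ext ?_
  have h := hrel x ((hfe x).symm ▸ (a x).2)
  rw [show f ((b x : P) : Ω) = _ from hfe (b x)] at h
  rw [← h]
  exact congrArg (fun z => ((b' z : P) : Ω)) (Subtype.ext (hfe x).symm).symm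

end Prod

end CfsgLib.Balance72
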