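import Cfsg.Agent.Fus.Balance72.Inv
import Cfsg.Agent.Fus.LocalSystems
import Cfsg.Agent.S5098

/-!
The normalizer of `X` in the product, its subsystem over `N_T(X)`, and the invariance of that
subsystem in the normalizer of `X` in the whole system.
-/

set_option autoImplicit false

namespace CfsgLib.Balance72

open Cfsg Cfsg.FusionSystem CfsgLib.Fus CfsgLib.NormalCent CfsgLib.Fus.PPowerExist

variable {Ω : Type*} [Group Ω] {S T : Subgroup Ω}

/-- The maps of a normalizer system, as functions. -/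
theorem mor_normalizer {F : Cfsg.FusionSystem S} {X : Subgroup Ω} [Finite X]
    {N : Cfsg.FusionSystem (normalizerIn S X)} (hN : F.IsNormalizerSystem X N) {P : Subgroup Ω}
    {φ : P →* Ω} :
    φ ∈ N.Hom P ↔ P ≤ normalizerIn S X ∧ ∃ h : Ω → Ω, Mor F (P ⊔ X) h ∧ (∀ x : P, h x = φ x) ∧
      ∀ x ∈ X, h x ∈ X := by
  rw [hN P]
  constructor
  · rintro ⟨-, hP, -, ψ, hψ, hψe, hψX⟩
    obtain ⟨h, hh, hhe⟩ := exists_mor hψ
    refine ⟨hP, h, hh, fun x => (hhe (Subgroup.inclusion le_sup_left x)).trans (hψe x),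
      fun x hx => ?_⟩
    rw [show h x = _ from hhe ⟨x, Subgroup.mem_sup_right hx⟩]
    exact hψX.le ⟨_, hx, rfl⟩
  · rintro ⟨hP, h, hh, hhe, hhX⟩
    have himg : h '' (X : Set Ω) = X := image_eq (hh.restrict le_sup_right) hhX
    obtain ⟨ψ, hψ, e⟩ := id hh
    refine ⟨hom_restrict F hψ le_sup_left fun x => ((e _).trans (hhe x)).symm, hP,
      fun x => hhe x ▸ ?_, ψ, hψ, fun x => (e _).trans (hhe x), ?_⟩
    · exact (hh.restrict (le_refl (P ⊔ X))).map_normalizer le_sup_right himg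
        (Subgroup.mem_sup_left x.2) (hP x.2).2
    · exact Fusion.Alperin.subgroupOf_map_eq (F.injective_of_mem hψ) le_sup_right
        fun x hx => (e x).symm ▸ hhX x hx

/-- The data: the product `G`, a fully normalized `X` and its normalizer system `N`. -/
structure Loc (F : Cfsg.FusionSystem S) (E : Cfsg.FusionSystem T) (G : Cfsg.FusionSystem S) (p : ℕ)
    (X : Subgroup Ω) (N : Cfsg.FusionSystem (normalizerIn S X)) : Prop where
  pr : Prod F E G p
  hX : F.IsFullyNormalized X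
  hN : F.IsNormalizerSystem X N

namespace Loc

variable [Finite S] {p : ℕ} [Fact p.Prime] {F : Cfsg.FusionSystem S} {E : Cfsg.FusionSystem T}
  {G : Cfsg.FusionSystem S} {X : Subgroup Ω} {N : Cfsg.FusionSystem (normalizerIn S X)}
  (L : Loc F E G p X N)

include L

theorem satN : N.IsSaturated p := Cfsg.Agent.S5098.result p L.pr.hS F L.pr.hF X L.hX N L.hN

theorem satGX : (normalizerSystem G X L.hX.1).IsSaturated p :=
  Cfsg.Agent.S5098.result p L.pr.hS G L.pr.hG X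
    ⟨L.hX.1, fun Q ⟨φ, hφ, hr⟩ => L.hX.2 Q ⟨φ, L.pr.hGF _ hφ, hr⟩⟩ _ fun _ => rfl

theorem gx_sub : (normalizerSystem G X L.hX.1).IsSubsystemOf N := by
  rintro P φ ⟨hφ, hP, hv, ψ, hψ, h1, h2⟩
  rw [L.hN P]
  exact ⟨L.pr.hGF _ hφ, hP, hv, ψ, L.pr.hGF _ hψ, h1, h2⟩

theorem gx_sub_G : (normalizerSystem G X L.hX.1).IsSubsystemOf G := fun _ _ h => h.1

theorem n_sub : N.IsSubsystemOf F := fun P φ h => by
  rw [L.hN P] at h
  exact h.1

theorem finiteX : Finite X := finite_of_le L.hX.1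

theorem normalT₀ :
    ((T ⊓ normalizerIn S X).subgroupOf (normalizerIn S X)).Normal := by
  refine ⟨fun x hx r => ⟨conj_mem_T L.pr.hE r.2.1 hx.1, ?_⟩⟩
  exact Subgroup.mul_mem _ (Subgroup.mul_mem _ r.2 hx.2) (Subgroup.inv_mem _ r.2)

theorem closedT₀ : N.StronglyClosed (T ⊓ normalizerIn S X) :=
  ⟨inf_le_right, fun _ hP φ hφ x => ⟨(closedT L.pr.hE).2 _ (hP.trans inf_le_left) φ (L.n_sub _ hφ) x,
    hom_mem N hφ x⟩⟩

theorem hyp_gx_le :
    (normalizerSystem G X L.hX.1).hyperfocalSubgroup p ≤ T ⊓ normalizerIn S X :=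
  le_inf ((FusAut.hyperfocal_mono L.gx_sub_G (normalizerIn_le X)).trans L.pr.hidx.2.1)
    (FusAut.hyperfocal_le _)

/-- `X` is normal in its normalizer system. -/
theorem normalX : N.IsNormal X := by
  have := L.finiteX
  have : Finite (normalizerIn S X) := finite_of_le (normalizerIn_le X)
  refine Fusion.Alperin.isNormal_intro (le_normalizerIn L.hX.1) fun P φ hφ => ?_
  obtain ⟨hP, h, hh, hhe, hhX⟩ := (mor_normalizer L.hN).1 hφ
  have hh' := hh.restrict (sup_le le_rfl le_sup_right : P ⊔ X ⊔ X ≤ P ⊔ X)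
  obtain ⟨ψ, hψ, e⟩ := id hh
  refine ⟨ψ, (mor_normalizer L.hN).2 ⟨sup_le hP (le_normalizerIn L.hX.1), h, hh', fun x => (e x).symm,
    hhX⟩, fun x => (e _).trans (hhe x), fun x hx => (e x).symm ▸ hhX x hx⟩

/-- An automorphism of `P ≥ X` in the product that lies in `N` lies in the normalizer there. -/
theorem mem_gx_of_mem {P : Subgroup Ω} (hP : P ≤ normalizerIn S X) (hXP : X ≤ P) {b : MulAut P}
    (hb : b ∈ G.autGroup P) (hbN : b ∈ N.autGroup P) :
    b ∈ (normalizerSystem G X L.hX.1).autGroup P := by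
  have := L.finiteX
  refine (mem_autGroup_iff _ hP).2
    ((mor_normalizer (N := normalizerSystem G X L.hX.1) fun _ => rfl).2 ⟨hP, ?_⟩)
  have hPS : P ≤ S := hP.trans (normalizerIn_le X)
  obtain ⟨f, hf, hfe, -⟩ := exists_mor_of_aut hPS ⟨b, hb⟩
  obtain ⟨-, h, -, hhe, hhX⟩ := (mor_normalizer L.hN).1 ((mem_autGroup_iff N hP).1 hbN)
  refine ⟨f, hf.restrict (sup_le le_rfl hXP), hfe, fun x hx => ?_⟩
  rw [show f x = _ from hfe ⟨x, hXP hx⟩]
  exact (show h x = ((b ⟨x, hXP hx⟩ : P) : Ω) from hhe ⟨x, hXP hx⟩) ▸ hhX x hx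

variable {M : Cfsg.FusionSystem (T ⊓ normalizerIn S X : Subgroup Ω)} (hM : M.IsSaturated p)
  (hMi : M.HasPPowerIndexIn (normalizerSystem G X L.hX.1) p)

include hM hMi

theorem m_sub_E : M.IsSubsystemOf E := by
  have : Finite (T ⊓ normalizerIn S X : Subgroup Ω) :=
    finite_of_le (inf_le_left.trans L.pr.hTS)
  refine FusAut.hom_subset_of_pResidual (L.pr.hS.to_le (inf_le_left.trans L.pr.hTS)) hM E
    inf_le_left fun R hR => ?_
  exact (FusAut.map_pResidual_mono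
    (autGroup_mono (fun P φ h => (hMi.1 P h).1 : M.IsSubsystemOf G) R)).trans
      (L.pr.hidx.2.2 R (hR.trans inf_le_left))

/-- An automorphism of order prime to `p` of the normalizer in the product is carried into `M` by
automorphisms of `N_T(X)`. -/
theorem congr_mem_m {a : MulAut (T ⊓ normalizerIn S X : Subgroup Ω)}
    (ha : a ∈ N.autGroup (T ⊓ normalizerIn S X)) {R : Subgroup Ω}
    (hR : R ≤ T ⊓ normalizerIn S X) {γ : MulAut R}
    (hγ : γ ∈ (normalizerSystem G X L.hX.1).autGroup R) (hco : (orderOf γ).Coprime p)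
    {hh : autHom a hR ∈ F.Hom R} :
    MulAut.congr (isoOf hh (autHom_range a hR)) γ ∈ M.autGroup (autImg a R) := by
  have := L.finiteX
  have hTS₀ : (T ⊓ normalizerIn S X : Subgroup Ω) ≤ S := inf_le_right.trans (normalizerIn_le X)
  have : Finite (T ⊓ normalizerIn S X : Subgroup Ω) := finite_of_le hTS₀
  have hRX : R ⊔ X ≤ S := sup_le (hR.trans hTS₀) L.hX.1
  have : Finite R := finite_of_le (hR.trans hTS₀)
  have : Finite (R ⊔ X : Subgroup Ω) := finite_of_le hRX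
  have := finite_mulAut (R ⊔ X : Subgroup Ω)
  obtain ⟨-, f, hf, hfe, hfX⟩ := (mor_normalizer (N := normalizerSystem G X L.hX.1) fun _ => rfl).1
    ((mem_autGroup_iff _ (hR.trans inf_le_right)).1 hγ)
  have hmaps : ∀ x ∈ R ⊔ X, f x ∈ R ⊔ X := fun x hx => mem_of_sup hf le_rfl
    (fun y hy => Subgroup.mem_sup_left ((hfe ⟨y, hy⟩).symm ▸ (γ ⟨y, hy⟩).2))
    (fun y hy => Subgroup.mem_sup_right (hfX y hy)) hx
  obtain ⟨⟨b, hbG⟩, hb⟩ := exists_aut hf le_rfl hmaps
  obtain ⟨k, n, -, hn, hbn, hk⟩ := exists_coprime_exponent b hco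
  have hbk : b ^ k ∈ aut G T p (R ⊔ X) := L.pr.coprime_mem_aut hRX (pow_mem hbG k)
    (hn.coprime_dvd_left (orderOf_dvd_of_pow_eq_one hbn))
  have hbkv : ∀ x : (R ⊔ X : Subgroup Ω), (((b ^ k) x : (R ⊔ X : Subgroup Ω)) : Ω) = f^[k] x :=
    fun x => (iterate_eq_aut (fun y => (hb y).symm) k x).symm
  -- the automorphism of `N_T(X)` extends to `X`
  obtain ⟨-, g, hg, hge, hgX⟩ := (mor_normalizer L.hN).1 ((mem_autGroup_iff N inf_le_right).1 ha)
  have hgR : ∀ x ∈ R, g x = autFun a x := fun x hx =>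
    (hge ⟨x, hR hx⟩).trans (autFun_apply a (hR hx)).symm
  have hle : R ⊔ X ≤ (T ⊓ normalizerIn S X : Subgroup Ω) ⊔ X := sup_le_sup_right hR X
  have hgR' : g '' (R : Set Ω) = autImg a R := by
    ext y
    rw [SetLike.mem_coe, mem_autImg hR]
    exact ⟨fun ⟨x, hx, e⟩ => ⟨x, hx, (hgR x hx).symm.trans e⟩,
      fun ⟨x, hx, e⟩ => ⟨x, hx, (hgR x hx).trans e⟩⟩
  have hgRX := image_sup hg hle hgR' (image_eq (hg.restrict le_sup_right) hgX)
  obtain ⟨b', hb', hrel⟩ := (L.pr.tra (hg.restrict hle) (R ⊔ X) le_rfl _ hgRX).1 _ hbk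
  have hR' : autImg a R ≤ (T ⊓ normalizerIn S X : Subgroup Ω) := autImg_le a R
  have hR'S : autImg a R ⊔ X ≤ S := sup_le (hR'.trans hTS₀) L.hX.1
  obtain ⟨f', hf', hf'e, -⟩ := exists_mor_of_aut hR'S ⟨b', L.pr.aut_le hR'S hb'⟩
  have hval : ∀ x ∈ R ⊔ X, f' (g x) = g (f^[k] x) := fun x hx => by
    have hgx : g x ∈ autImg a R ⊔ X := (hgRX ▸ ⟨x, hx, rfl⟩ : g x ∈ ((autImg a R ⊔ X : Subgroup Ω) : Set Ω))
    rw [show f' (g x) = _ from hf'e ⟨g x, hgx⟩, ← hbkv ⟨x, hx⟩]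
    exact hrel ⟨x, hx⟩ hgx
  set c := isoOf hh (autHom_range a hR)
  have hkγ : γ ^ k = γ := hk γ rfl
  have hagree : ∀ y : autImg a R, f' y = ((MulAut.congr c γ y : autImg a R) : Ω) := fun y => by
    obtain ⟨x, rfl⟩ := c.surjective y
    show f' ((c x : autImg a R) : Ω) = ((c (γ (c.symm (c x))) : autImg a R) : Ω)
    rw [MulEquiv.symm_apply_apply, isoOf_apply, isoOf_apply, autHom_apply, autHom_apply,
      ← hgR x x.2, hval x (Subgroup.mem_sup_left x.2), iterate_eq_aut hfe k x, hkγ,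
      hgR _ (γ x).2]
  have hfkX : ∀ i, ∀ x ∈ X, f^[i] x ∈ X := by
    intro i
    induction i with
    | zero => exact fun x hx => hx
    | succ i ih => exact fun x hx => by rw [Function.iterate_succ_apply']; exact hfX _ (ih x hx)
  have hgx : MulAut.congr c γ ∈ (normalizerSystem G X L.hX.1).autGroup (autImg a R) := by
    refine (mem_autGroup_iff _ (hR'.trans inf_le_right)).2
      ((mor_normalizer (N := normalizerSystem G X L.hX.1) fun _ => rfl).2
        ⟨hR'.trans inf_le_right, f', hf', hagree, fun x hx => ?_⟩)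
    obtain ⟨z, hz, rfl⟩ : x ∈ g '' (X : Set Ω) := (image_eq (hg.restrict le_sup_right) hgX).ge hx
    rw [hval z (Subgroup.mem_sup_right hz)]
    exact hgX _ (hfkX k z hz)
  refine hMi.2.2 _ hR' (LocalCharP.mem_map_pResidual hgx ?_)
  rw [MulEquiv.orderOf_eq]
  exact hco

/-- Invariance under the automorphisms of `N_T(X)`. -/
theorem transport {a : MulAut (T ⊓ normalizerIn S X : Subgroup Ω)}
    (ha : a ∈ N.autGroup (T ⊓ normalizerIn S X)) {P : Subgroup Ω} {φ : P →* Ω}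
    (hφ : φ ∈ M.Hom P) :
    ∃ χ ∈ M.Hom (autImg a P), ∀ (x : P) (h : autFun a x ∈ autImg a P),
      χ ⟨autFun a x, h⟩ = autFun a (φ x) := by
  have hTS : (T ⊓ normalizerIn S X : Subgroup Ω) ≤ S := inf_le_right.trans (normalizerIn_le X)
  have : Finite (T ⊓ normalizerIn S X : Subgroup Ω) := finite_of_le hTS
  have hT := L.pr.hS.to_le hTS
  refine Fusion.Alperin.hom_induction hT hM (C := fun P φ => ∃ χ ∈ M.Hom (autImg a P),
    ∀ (x : P) (h : autFun a x ∈ autImg a P), χ ⟨autFun a x, h⟩ = autFun a (φ x)) ?_ ?_ ?_ ?_ hφ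
  · intro R hR β hβ
    have hRT := hR.fullyNormalized.1
    have := finite_of_le hRT
    have := finite_mulAut R
    have hh : autHom a hRT ∈ F.Hom R :=
      hom_restrict F (L.n_sub _ ((mem_autGroup_iff N inf_le_right).1 ha)) hRT fun _ => rfl
    set c := isoOf hh (autHom_range a hRT) with hc
    have hce : ∀ x : R, ((c x : autImg a R) : Ω) = autFun a x := fun x => autHom_apply a hRT x
    have hle : M.autGroup R ≤ Subgroup.comap (MulAut.congr c).toMonoidHom (M.autGroup (autImg a R)) := by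
      intro γ₀ hγ₀
      have h1 : (Cfsg.pResidual p (M.autGroup R)).map (M.autGroup R).subtype ≤
          Subgroup.comap (MulAut.congr c).toMonoidHom (M.autGroup (autImg a R)) := by
        rw [LocalCharP.map_pResidual_le_iff]
        exact fun γ hγ hco => L.congr_mem_m hM hMi ha hRT (autGroup_mono hMi.1 R hγ) hco
      have h2 : Cfsg.autInducedBy (T ⊓ normalizerIn S X : Subgroup Ω) R ≤
          Subgroup.comap (MulAut.congr c).toMonoidHom (M.autGroup (autImg a R)) := by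
        intro γ hγ
        obtain ⟨g, hg, hgx⟩ := mem_autInducedBy_iff.1 hγ
        refine autInducedBy_le_autGroup M (autImg_le a R)
          (mem_autInducedBy_iff.2 ⟨autFun a g, autFun_mem a hg, fun y => ?_⟩)
        obtain ⟨x, rfl⟩ : ∃ x : R, c x = y := ⟨_, MulEquiv.apply_symm_apply _ y⟩
        show ((c (γ (c.symm (c x))) : autImg a R) : Ω) = _
        rw [MulEquiv.symm_apply_apply, hce, hce, hgx,
          autFun_map_mul a ((T ⊓ normalizerIn S X).mul_mem hg (hRT x.2)) ((T ⊓ normalizerIn S X).inv_mem hg), autFun_map_mul a hg (hRT x.2),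
          autFun_map_inv a hg]
      exact sup_le h1 h2 (FusAut.autGroup_le_sup (fullyNormalized_props hT hM hR.fullyNormalized).1 hγ₀)
    refine ⟨_, (mem_autGroup_iff M (autImg_le a R)).1 (hle hβ), fun x h => ?_⟩
    have e : (⟨autFun a x, h⟩ : autImg a R) = c x := Subtype.ext (hce x).symm
    rw [e]
    show ((c (β (c.symm (c x))) : autImg a R) : Ω) = _
    rw [MulEquiv.symm_apply_apply, hce]
    rfl
  · intro P Q hPQ ψ hψ hC
    obtain ⟨χ, hχ, hχe⟩ := hC
    have hle : autImg a P ≤ autImg a Q := by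
      rintro _ ⟨x, hx, rfl⟩
      exact ⟨x, hPQ hx, rfl⟩
    exact ⟨_, restrict_mem M hχ hle, fun x hx => hχe (Subgroup.inclusion hPQ x) (hle hx)⟩
  · rintro P Q φ ψ hφ hψ h ⟨χ₁, hχ₁, h₁⟩ ⟨χ₂, hχ₂, h₂⟩
    have hP := hom_le M hφ
    have hQ := hom_le M hψ
    have hmem : ∀ y : autImg a P, χ₁ y ∈ autImg a Q := by
      intro ⟨y, hy⟩
      obtain ⟨x, hx, rfl⟩ := (mem_autImg hP).1 hy
      rw [h₁ ⟨x, hx⟩]
      exact autFun_mem_autImg a hQ (h _)
    refine ⟨_, M.comp_mem hχ₁ hχ₂ hmem, fun x hx => ?_⟩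
    show χ₂ ⟨χ₁ ⟨autFun a x, hx⟩, _⟩ = autFun a (ψ ⟨φ x, h x⟩)
    rw [← h₂ ⟨φ x, h x⟩ (autFun_mem_autImg a hQ (h x))]
    congr 1
    exact Subtype.ext (h₁ x hx)
  · rintro P Q φ ψ hφ hψ hr hinv ⟨χ, hχ, hχe⟩
    have hP := hom_le M hφ
    have hQ := hom_le M hψ
    have hrange : χ.range = autImg a Q := by
      ext y
      constructor
      · rintro ⟨⟨z, hz⟩, rfl⟩
        obtain ⟨x, hx, rfl⟩ := (mem_autImg hP).1 hz
        rw [hχe ⟨x, hx⟩]
        exact autFun_mem_autImg a hQ (hr ▸ ⟨_, rfl⟩)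
      · intro hy
        obtain ⟨w, hw, rfl⟩ := (mem_autImg hQ).1 hy
        obtain ⟨x, rfl⟩ : w ∈ φ.range := hr.symm ▸ hw
        exact ⟨_, hχe x (autFun_mem_autImg a hP x.2)⟩
    obtain ⟨χ', hχ', -, hχ'e, -⟩ := exists_inv M hχ hrange
    refine ⟨χ', hχ', fun y h => ?_⟩
    obtain ⟨x, hx⟩ : (y : Ω) ∈ φ.range := hr.symm ▸ y.2
    have hxQ : φ x ∈ Q := hr ▸ ⟨x, rfl⟩
    obtain rfl : y = ⟨φ x, hxQ⟩ := Subtype.ext hx.symm
    rw [hinv]
    have h' := hχ'e ⟨autFun a x, autFun_mem_autImg a hP x.2⟩ (hrange ▸ ⟨_, rfl⟩)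
    have h'' := hχe x (autFun_mem_autImg a hP x.2)
    refine Eq.trans ?_ h'
    congr 1
    exact Subtype.ext h''.symm

end Loc

end CfsgLib.Balance72
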