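import Cfsg.Agent.Fus.Product89.Unique

/-!
The subsystems of `p`-power index of the product of a normal subsystem with the whole base, and
their transport along maps of the system defined on all of their base.
-/

set_option autoImplicit false

namespace CfsgLib.Balance72

open Cfsg Cfsg.FusionSystem CfsgLib.Fus CfsgLib.NormalCent CfsgLib.Product89

variable {Ω : Type*} [Group Ω] {S T : Subgroup Ω}

/-- The product `G` of the normal subsystem `E` with `S`, by its properties. -/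
structure Prod (F : Cfsg.FusionSystem S) (E : Cfsg.FusionSystem T) (G : Cfsg.FusionSystem S)
    (p : ℕ) : Prop where
  hS : IsPGroup p S
  hF : F.IsSaturated p
  hE : E.IsNormalIn F p
  hG : G.IsSaturated p
  hGF : G.IsSubsystemOf F
  hidx : E.HasPPowerIndexIn G p
  gen : ∀ (P : Subgroup Ω) (γ : MulAut P), GenElt F E p S P γ → γ ∈ G.autGroup P

/-- The automizer at `Q` of the subsystem of `p`-power index over `T Q`. -/
def aut (G : Cfsg.FusionSystem S) (T : Subgroup Ω) (p : ℕ) (Q : Subgroup Ω) : Subgroup (MulAut Q) :=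
  ⨅ (H : Cfsg.FusionSystem (T ⊔ Q : Subgroup Ω)) (_ : H.IsSaturated p)
    (_ : H.HasPPowerIndexIn G p), H.autGroup Q

theorem image_sup {F : Cfsg.FusionSystem S} {W : Subgroup Ω} {f : Ω → Ω} (hf : Mor F W f)
    {A B A' B' : Subgroup Ω} (hW : A ⊔ B ≤ W) (hA : f '' (A : Set Ω) = A')
    (hB : f '' (B : Set Ω) = B') :
    f '' ((A ⊔ B : Subgroup Ω) : Set Ω) = ((A' ⊔ B' : Subgroup Ω) : Set Ω) := by
  obtain ⟨R, hR, -⟩ := hf.exists_img hW
  have hm : ∀ x ∈ A ⊔ B, f x ∈ R := fun x hx => by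
    show _ ∈ (R : Set Ω)
    rw [← hR]
    exact ⟨x, hx, rfl⟩
  have h1 : R ≤ A' ⊔ B' := fun y hy => by
    obtain ⟨x, hx, rfl⟩ := (show y ∈ f '' ((A ⊔ B : Subgroup Ω) : Set Ω) from hR ▸ hy)
    exact mem_of_sup hf hW
      (fun z hz => Subgroup.mem_sup_left (show f z ∈ (A' : Set Ω) from hA ▸ ⟨z, hz, rfl⟩))
      (fun z hz => Subgroup.mem_sup_right (show f z ∈ (B' : Set Ω) from hB ▸ ⟨z, hz, rfl⟩)) hx
  have h2 : A' ⊔ B' ≤ R := sup_le
    (fun y hy => by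
      obtain ⟨x, hx, rfl⟩ := (show y ∈ f '' (A : Set Ω) from hA ▸ hy)
      exact hm x (Subgroup.mem_sup_left hx))
    (fun y hy => by
      obtain ⟨x, hx, rfl⟩ := (show y ∈ f '' (B : Set Ω) from hB ▸ hy)
      exact hm x (Subgroup.mem_sup_right hx))
  rw [hR, le_antisymm h1 h2]

namespace Prod

variable [Finite S] {p : ℕ} [Fact p.Prime] {F : Cfsg.FusionSystem S} {E : Cfsg.FusionSystem T}
  {G : Cfsg.FusionSystem S} (K : Prod F E G p)

include K

theorem hTS : T ≤ S := le_S K.hE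

theorem image_T {W : Subgroup Ω} {f : Ω → Ω} (hf : Mor F W f) (hW : T ≤ W) :
    f '' (T : Set Ω) = T :=
  have : Finite T := finite_of_le K.hTS
  image_eq (hf.restrict hW) fun _ hx => mor_mem_T K.hE hf (hW hx) hx

theorem exists_sub {R : Subgroup Ω} (hTR : T ≤ R) (hR : R ≤ S) :
    ∃ H : Cfsg.FusionSystem R, H.IsSaturated p ∧ H.HasPPowerIndexIn G p :=
  PPowerExist.exists_pPowerIndex K.hS G K.hG hR (K.hidx.2.1.trans hTR)

theorem mem_aut_iff {Q : Subgroup Ω} (hQ : Q ≤ S) {H : Cfsg.FusionSystem (T ⊔ Q : Subgroup Ω)}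
    (hH : H.IsSaturated p) (hHi : H.HasPPowerIndexIn G p) {a : MulAut Q} :
    a ∈ aut G T p Q ↔ a ∈ H.autGroup Q := by
  unfold aut
  simp only [Subgroup.mem_iInf]
  refine ⟨fun h => h H hH hHi, fun h H' hH' hHi' => ?_⟩
  rwa [FusAut.hom_eq_of_pPowerIndex K.hS (sup_le K.hTS hQ) hH' hH hHi' hHi]

theorem aut_le {Q : Subgroup Ω} (hQ : Q ≤ S) : aut G T p Q ≤ G.autGroup Q := by
  obtain ⟨H, hH, hHi⟩ := K.exists_sub le_sup_left (sup_le K.hTS hQ)
  exact fun a ha => autGroup_mono hHi.1 Q ((K.mem_aut_iff hQ hH hHi).1 ha)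

theorem coprime_mem_aut {Q : Subgroup Ω} (hQ : Q ≤ S) {a : MulAut Q} (ha : a ∈ G.autGroup Q)
    (hco : (orderOf a).Coprime p) : a ∈ aut G T p Q := by
  obtain ⟨H, hH, hHi⟩ := K.exists_sub le_sup_left (sup_le K.hTS hQ)
  exact (K.mem_aut_iff hQ hH hHi).2
    (hHi.2.2 Q le_sup_right (LocalCharP.mem_map_pResidual ha hco))

theorem autT_le_aut {Q : Subgroup Ω} (hQ : Q ≤ S) : Cfsg.autInducedBy T Q ≤ aut G T p Q := by
  obtain ⟨H, hH, hHi⟩ := K.exists_sub le_sup_left (sup_le K.hTS hQ)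
  exact fun a ha => (K.mem_aut_iff hQ hH hHi).2
    (autInducedBy_le_autGroup H le_sup_right (autInducedBy_mono le_sup_left ha))

/-- `E` is normal, of `p`-power index, in each of the subsystems. -/
theorem pPowerIndex_sub {R : Subgroup Ω} (hTR : T ≤ R) (hR : R ≤ S) {H : Cfsg.FusionSystem R}
    (hHi : H.HasPPowerIndexIn G p) : E.HasPPowerIndexIn H p := by
  have : Finite T := finite_of_le K.hTS
  refine ⟨FusAut.hom_subset_of_pResidual (K.hS.to_le K.hTS) K.hE.1.1 H hTR fun P hP => ?_, ?_,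
    fun P hP => ?_⟩
  · exact (FusAut.map_pResidual_mono (autGroup_mono K.hidx.1 P)).trans (hHi.2.2 P (hP.trans hTR))
  · exact (FusAut.hyperfocal_mono hHi.1 hR).trans K.hidx.2.1
  · exact (FusAut.map_pResidual_mono (autGroup_mono hHi.1 P)).trans (K.hidx.2.2 P hP)

theorem normal_in_sub {R : Subgroup Ω} (hTR : T ≤ R) (hR : R ≤ S) {H : Cfsg.FusionSystem R}
    (hH : H.IsSaturated p) (hHi : H.HasPPowerIndexIn G p) : E.IsNormalIn H p :=
  have : Finite R := finite_of_le hR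
  PPowerExist.isNormalIn_of_pPowerIndex (K.hS.to_le hR) hH hTR
    ⟨fun _ hx r => conj_mem_T K.hE (hR r.2) hx⟩ (K.pPowerIndex_sub hTR hR hHi).2.1 K.hE.1.1
    (K.pPowerIndex_sub hTR hR hHi)

/-- The generators of the product are carried to generators by all maps of the system. -/
theorem genElt_map {R P P' : Subgroup Ω} {γ : MulAut P} (hγ : GenElt F E p R P γ) {f : Ω → Ω}
    (hf : Mor F P f) (hP' : f '' (P : Set Ω) = P') :
    ∃ γ' : MulAut P', GenElt F E p S P' γ' ∧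
      ∀ (x : P) (h : f x ∈ P'), ((γ' ⟨f x, h⟩ : P') : Ω) = f (γ x) := by
  obtain ⟨φ, hφ, e⟩ := hf
  have hfm : Mor F P f := ⟨φ, hφ, e⟩
  have hr : φ.range = P' := SetLike.coe_injective (by
    rw [← hP']
    ext y
    constructor
    · rintro ⟨x, rfl⟩; exact ⟨x, x.2, (e x).symm⟩
    · rintro ⟨x, hx, rfl⟩; exact ⟨⟨x, hx⟩, e _⟩)
  have hPS : P ≤ S := hfm.le
  have : Finite P := finite_of_le hPS
  obtain ⟨g, hg, hgf, hfg, hgP⟩ := hfm.exists_inv hP'
  have hgm : ∀ y ∈ P', g y ∈ P := fun y hy => by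
    show _ ∈ (P : Set Ω)
    rw [← hgP]
    exact ⟨y, hy, rfl⟩
  have hfm' : ∀ x ∈ P, f x ∈ P' := fun x hx => by
    show _ ∈ (P' : Set Ω)
    rw [← hP']
    exact ⟨x, hx, rfl⟩
  have hQ : f '' ((P ⊓ T : Subgroup Ω) : Set Ω) = ((P' ⊓ T : Subgroup Ω) : Set Ω) := by
    ext y
    constructor
    · rintro ⟨x, hx, rfl⟩
      exact ⟨hfm' x hx.1, mor_mem_T K.hE hfm hx.1 hx.2⟩
    · rintro ⟨hy, hyT⟩
      exact ⟨g y, ⟨hgm y hy, mor_mem_T K.hE hg hy hyT⟩, hfg y hy⟩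
  set c := isoOf hφ hr
  have hc : ∀ (x : P) (h : f x ∈ P'), ((MulAut.congr c γ ⟨f x, h⟩ : P') : Ω) = f (γ x) := by
    intro x h
    rw [show (⟨f x, h⟩ : P') = c x from Subtype.ext (e x).symm]
    show ((c (γ (c.symm (c x))) : P') : Ω) = _
    rw [MulEquiv.symm_apply_apply, isoOf_apply, e]
  refine ⟨MulAut.congr c γ, ⟨?_, congr_mem_autGroup hφ hr hγ.mem, ?_, ?_, ?_, ?_⟩, hc⟩
  · exact hr ▸ range_le F hφ
  · rw [MulEquiv.orderOf_eq]
    exact hγ.coprime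
  · exact tcentric_image K.hE hγ.tc (hfm.restrict inf_le_left) hQ
  · intro y
    obtain ⟨x, hx, hxy⟩ := (show (y : Ω) ∈ f '' (P : Set Ω) from hP' ▸ y.2)
    rw [show y = ⟨f ((⟨x, hx⟩ : P) : Ω), hfm' x hx⟩ from Subtype.ext hxy.symm, hc ⟨x, hx⟩]
    show (f x)⁻¹ * f _ ∈ T
    rw [← hfm.map_inv hx, ← hfm.map_mul (P.inv_mem hx) (γ ⟨x, hx⟩).2]
    exact mor_mem_T K.hE hfm (P.mul_mem (P.inv_mem hx) (γ ⟨x, hx⟩).2) (hγ.disp ⟨x, hx⟩)
  · obtain ⟨b, hb, hbe⟩ := hγ.res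
    obtain ⟨ψ, hψ, eψ⟩ := hfm.restrict (inf_le_left : P ⊓ T ≤ P)
    have hrψ : ψ.range = P' ⊓ T := SetLike.coe_injective (by
      rw [← hQ]
      ext y
      constructor
      · rintro ⟨x, rfl⟩; exact ⟨x, x.2, (eψ x).symm⟩
      · rintro ⟨x, hx, rfl⟩; exact ⟨⟨x, hx⟩, eψ _⟩)
    refine ⟨_, congr_mem_E K.hE hψ hrψ inf_le_right hb, fun y => ?_⟩
    obtain ⟨x, rfl⟩ := (isoOf hψ hrψ).surjective y
    show ((isoOf hψ hrψ (b ((isoOf hψ hrψ).symm (isoOf hψ hrψ x))) : (P' ⊓ T : Subgroup Ω)) : Ω) = _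
    rw [MulEquiv.symm_apply_apply, isoOf_apply, eψ, hbe]
    have e2 : ((Subgroup.inclusion (inf_le_left : P' ⊓ T ≤ P') (isoOf hψ hrψ x) : P') : Ω) =
        f x := eψ x
    rw [show Subgroup.inclusion (inf_le_left : P' ⊓ T ≤ P') (isoOf hψ hrψ x) =
      ⟨f ((Subgroup.inclusion inf_le_left x : P) : Ω), hfm' _ x.2.1⟩ from Subtype.ext e2]
    exact (hc (Subgroup.inclusion inf_le_left x) _).symm

/-- The subsystems correspond along maps defined on the whole base. -/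
theorem sub_transport {R R' : Subgroup Ω} (hTR : T ≤ R) (hR : R ≤ S) (hR' : R' ≤ S)
    {H : Cfsg.FusionSystem R} (hH : H.IsSaturated p) (hHi : H.HasPPowerIndexIn G p)
    {H' : Cfsg.FusionSystem R'} (hH'i : H'.HasPPowerIndexIn G p) {f : Ω → Ω} (hf : Mor F R f)
    (hfR : f '' (R : Set Ω) = R') {P : Subgroup Ω} {φ : P →* Ω} (hφ : φ ∈ H.Hom P) :
    ∃ (P' : Subgroup Ω) (g : Ω → Ω), f '' (P : Set Ω) = P' ∧ Mor H' P' g ∧
      ∀ x : P, g (f x) = f (φ x) := by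
  have : Finite R := finite_of_le hR
  have : Finite R' := finite_of_le hR'
  have hRp := K.hS.to_le hR
  have hTn : (T.subgroupOf R).Normal := ⟨fun _ hx r => conj_mem_T K.hE (hR r.2) hx⟩
  have hEi := K.pPowerIndex_sub hTR hR hHi
  have hmR : ∀ {x : Ω}, x ∈ R → f x ∈ R' := fun hx => by
    show _ ∈ (R' : Set Ω)
    rw [← hfR]
    exact ⟨_, hx, rfl⟩
  refine Fusion.Alperin.hom_induction hRp hH (C := fun P φ => ∃ (P' : Subgroup Ω) (g : Ω → Ω),
    f '' (P : Set Ω) = P' ∧ Mor H' P' g ∧ ∀ x : P, g (f x) = f (φ x)) ?_ ?_ ?_ ?_ hφ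
  · intro P hP a ha
    have hPR : P ≤ R := hP.centric.1
    have : Finite P := finite_of_le hPR
    obtain ⟨ψ, hψ, e⟩ := hf.restrict hPR
    have hP'R : ψ.range ≤ R' := by
      rintro _ ⟨x, rfl⟩
      rw [e]
      exact hmR (hPR x.2)
    have hP' : f '' (P : Set Ω) = ψ.range := by
      ext y
      constructor
      · rintro ⟨x, hx, rfl⟩; exact ⟨⟨x, hx⟩, e _⟩
      · rintro ⟨x, rfl⟩; exact ⟨x, x.2, (e x).symm⟩
    set c := isoOf hψ (rfl : ψ.range = ψ.range)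
    have hle : H.autGroup P ≤
        Subgroup.comap (MulAut.congr c).toMonoidHom (H'.autGroup ψ.range) := by
      refine (FusAut.autGroup_le_sup (fullyNormalized_props hRp hH hP.fullyNormalized).1).trans
        (sup_le (LocalCharP.map_pResidual_le_iff.2 fun γ hγ hco => ?_) fun γ hγ => ?_)
      · obtain ⟨-, hdisp, b, hb, hbe⟩ := exists_res_mem hRp hH hTR hTn hEi hPR hγ hco
        have hgen : GenElt F E p R P γ :=
          { le := hPR
            mem := autGroup_mono K.hGF P (autGroup_mono hHi.1 P hγ)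
            coprime := hco
            tc := tcentric_of_centric K.hE (tCentric_of_isCentric_of_sub hEi.1
              (tcentric_inter hRp (K.normal_in_sub hTR hR hH hHi) hP.centric hP.radical))
            disp := hdisp
            res := ⟨b, hb, hbe⟩ }
        obtain ⟨γ', hγ', hγ'e⟩ := K.genElt_map hgen (hf.restrict hPR) hP'
        have heq : MulAut.congr c γ = γ' := by
          refine MulEquiv.ext fun y => Subtype.ext ?_
          obtain ⟨x, rfl⟩ := c.surjective y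
          show ((c (γ (c.symm (c x))) : ψ.range) : Ω) = _
          rw [MulEquiv.symm_apply_apply, isoOf_apply, e,
            show c x = ⟨f x, (e x) ▸ ⟨x, rfl⟩⟩ from Subtype.ext (e x)]
          exact (hγ'e x _).symm
        show MulAut.congr c γ ∈ H'.autGroup ψ.range
        rw [heq]
        exact hH'i.2.2 _ hP'R (LocalCharP.mem_map_pResidual (K.gen _ _ hγ') hγ'.coprime)
      · obtain ⟨r, hr, hrx⟩ := mem_autInducedBy_iff.1 hγ
        refine autInducedBy_le_autGroup H' hP'R (mem_autInducedBy_iff.2 ⟨f r, hmR hr, fun y => ?_⟩)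
        obtain ⟨x, rfl⟩ := c.surjective y
        show ((c (γ (c.symm (c x))) : ψ.range) : Ω) = _
        rw [MulEquiv.symm_apply_apply, isoOf_apply, isoOf_apply, e, e, hrx,
          hf.map_conj hr (hPR x.2)]
    obtain ⟨g, hg, hge, -⟩ := exists_mor_of_aut hP'R ⟨_, hle ha⟩
    refine ⟨ψ.range, g, hP', hg, fun x => ?_⟩
    show g (f x) = f ((a x : P) : Ω)
    rw [← e x, show ψ x = ((c x : ψ.range) : Ω) from rfl, hge (c x), ← e (a x)]
    show ((c (a (c.symm (c x))) : ψ.range) : Ω) = _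
    rw [MulEquiv.symm_apply_apply]
    rfl
  · rintro A B hAB ψ hψ ⟨B', g, hB', hg, hge⟩
    obtain ⟨A', hA', -⟩ := hf.exists_img ((hAB.trans (hom_le H hψ) : A ≤ R))
    refine ⟨A', g, hA', hg.restrict fun y hy => ?_, fun x => hge (Subgroup.inclusion hAB x)⟩
    show _ ∈ (B' : Set Ω)
    obtain ⟨x, hx, rfl⟩ := (show y ∈ f '' (A : Set Ω) from hA' ▸ hy)
    rw [← hB']
    exact ⟨x, hAB hx, rfl⟩
  · rintro A B φ ψ hφ hψ h ⟨A', g, hA', hg, hge⟩ ⟨B', g', hB', hg', hge'⟩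
    refine ⟨A', g' ∘ g, hA', hg.comp hg' fun y hy => ?_, fun x => ?_⟩
    · obtain ⟨x, hx, rfl⟩ := (show y ∈ f '' (A : Set Ω) from hA' ▸ hy)
      rw [show g (f x) = f (φ ⟨x, hx⟩) from hge ⟨x, hx⟩]
      show _ ∈ (B' : Set Ω)
      rw [← hB']
      exact ⟨_, h _, rfl⟩
    · show g' (g (f x)) = f (ψ ⟨φ x, h x⟩)
      rw [hge]
      exact hge' ⟨φ x, h x⟩
  · rintro A B φ ψ hφ hψ hr hinv ⟨A', g, hA', hg, hge⟩
    obtain ⟨B', hB', -⟩ := hf.exists_img (hom_le H hψ : B ≤ R)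
    have himg : g '' (A' : Set Ω) = B' := by
      rw [← hA', ← hB', ← Set.image_comp]
      ext y
      constructor
      · rintro ⟨x, hx, rfl⟩
        exact ⟨φ ⟨x, hx⟩, hr ▸ ⟨_, rfl⟩, (hge ⟨x, hx⟩).symm⟩
      · rintro ⟨z, hz, rfl⟩
        obtain ⟨x, rfl⟩ := (hr.symm ▸ hz : z ∈ φ.range)
        exact ⟨x, x.2, hge x⟩
    obtain ⟨g', hg', hg'g, -, -⟩ := hg.exists_inv himg
    refine ⟨B', g', hB', hg', fun y => ?_⟩
    obtain ⟨x, hx⟩ : (y : Ω) ∈ φ.range := hr.symm ▸ y.2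
    have hxB : φ x ∈ B := hr ▸ ⟨x, rfl⟩
    obtain rfl : y = ⟨φ x, hxB⟩ := Subtype.ext hx.symm
    rw [hinv]
    show g' (f (φ x)) = f x
    rw [← hge x]
    exact hg'g _ (show f x ∈ (A' : Set Ω) from hA' ▸ ⟨x, x.2, rfl⟩)

/-- Transport of the automizers along maps defined on `T Q`. -/
theorem aut_transport {W Q Q' : Subgroup Ω} {f : Ω → Ω} (hf : Mor F W f) (hW : T ⊔ Q ≤ W)
    (hQ' : f '' (Q : Set Ω) = Q') {a : MulAut Q} (ha : a ∈ aut G T p Q) :
    ∃ a' ∈ aut G T p Q', ∀ (x : Q) (h : f x ∈ Q'), ((a' ⟨f x, h⟩ : Q') : Ω) = f (a x) := by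
  have hQW : Q ≤ W := le_sup_right.trans hW
  have hQS : Q ≤ S := hQW.trans hf.le
  have hRS : T ⊔ Q ≤ S := hW.trans hf.le
  have hR := image_sup hf hW (K.image_T hf (le_sup_left.trans hW)) hQ'
  have hQ'S : Q' ≤ S := fun y hy => by
    obtain ⟨x, hx, rfl⟩ := (show y ∈ f '' (Q : Set Ω) from hQ' ▸ hy)
    exact hf.mem (hQW hx)
  have hR'S : T ⊔ Q' ≤ S := sup_le K.hTS hQ'S
  obtain ⟨H, hH, hHi⟩ := K.exists_sub le_sup_left hRS
  obtain ⟨H', hH', hH'i⟩ := K.exists_sub le_sup_left hR'S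
  have haH := (K.mem_aut_iff hQS hH hHi).1 ha
  obtain ⟨P', g, hP', hg, hge⟩ := K.sub_transport le_sup_left hRS hR'S hH hHi hH'i
    (hf.restrict hW) hR ((mem_autGroup_iff H le_sup_right).1 haH)
  obtain rfl : P' = Q' := SetLike.coe_injective (hP'.symm.trans hQ')
  have : Finite P' := finite_of_le hQ'S
  have hgQ : g '' (P' : Set Ω) = P' := by
    refine image_eq hg fun y hy => ?_
    obtain ⟨x, hx, rfl⟩ := (show y ∈ f '' (Q : Set Ω) from hQ' ▸ hy)
    rw [show g (f x) = f ((a ⟨x, hx⟩ : Q) : Ω) from hge ⟨x, hx⟩]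
    show _ ∈ (P' : Set Ω)
    rw [← hQ']
    exact ⟨_, (a ⟨x, hx⟩).2, rfl⟩
  obtain ⟨a', ha'⟩ := exists_aut_of_mor hg hgQ
  refine ⟨a', (K.mem_aut_iff hQ'S hH' hH'i).2 a'.2, fun x h => ?_⟩
  rw [ha']
  exact hge x

end Prod

end CfsgLib.Balance72
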